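import Cfsg.Agent.Lib.Wielandt.Kernel

/-!
# Fourier blocks of invariant kernels

`M C l A` is the `2 × 2` block matrix of the kernel `A` at the character `l` of `⟨x⟩`.
-/

set_option autoImplicit false

namespace Cfsg.Agent.Lib.Wielandt.Block

open Matrix MulAction
open Cfsg.Agent.Lib.Wielandt.Fourier Cfsg.Agent.Lib.Wielandt.Kernel

variable {p : ℕ} [Fact p.Prime] {α : Type*} [Fintype α] [DecidableEq α]
  {G : Type*} [Group G] [Fintype G] [MulAction G α]

/-- The Fourier block matrix. -/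
noncomputable def M (C : Coord p α G) (l : ZMod p) (A : Matrix α α ℚ) : Matrix (Fin 2) (Fin 2) ℂ :=
  Matrix.of fun b c => ∑ j : ZMod p, ((A (C.φ (0, b)) (C.φ (j, c)) : ℚ) : ℂ) * e (l * j)

lemma M_apply (C : Coord p α G) (l : ZMod p) (A : Matrix α α ℚ) (b c : Fin 2) :
    M C l A b c = ∑ j : ZMod p, ((A (C.φ (0, b)) (C.φ (j, c)) : ℚ) : ℂ) * e (l * j) := rfl

lemma M_smul (C : Coord p α G) (l : ZMod p) (r : ℚ) (A : Matrix α α ℚ) :
    M C l (r • A) = (r : ℂ) • M C l A := by
  ext b c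
  simp only [M_apply, Matrix.smul_apply, smul_eq_mul, Finset.mul_sum]
  refine Finset.sum_congr rfl fun j _ => ?_
  push_cast
  ring

/-- Abstract convolution computation. -/
lemma conv_aux {ι κ : Type*} [Fintype ι] [Fintype κ] (f : ι → ℂ) (B' : ι → κ → ℂ) (E : κ → ℂ) (E' : ι → ℂ)
    (m : ℂ) (hinner : ∀ i, ∑ j, B' i j * E j = E' i * m) :
    ∑ j, (∑ i, f i * B' i j) * E j = (∑ i, f i * E' i) * m := by
  simp_rw [Finset.sum_mul]
  rw [Finset.sum_comm]
  refine Finset.sum_congr rfl fun i _ => ?_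
  simp_rw [mul_assoc]
  rw [← Finset.mul_sum, hinner i]

theorem M_mul (C : Coord p α G) (l : ZMod p) {A B : Matrix α α ℚ} (hB : IsInv G B) :
    M C l (A * B) = M C l A * M C l B := by
  ext b c
  have hinner : ∀ (d : Fin 2) (i : ZMod p),
      ∑ j : ZMod p, ((B (C.φ (i, d)) (C.φ (j, c)) : ℚ) : ℂ) * e (l * j)
        = e (l * i) * M C l B d c := by
    intro d i
    rw [M_apply, Finset.mul_sum, ← Equiv.sum_comp (Equiv.addRight i)]
    refine Finset.sum_congr rfl fun j _ => ?_
    have h1 := C.kernel_coord (fun y z => B y z) (fun y z => hB C.x y z) i (j + i) d c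
    simp only [add_sub_cancel_right] at h1
    simp only [Equiv.coe_addRight]
    rw [h1, mul_add, e_add]
    ring
  have hsum : ∀ j : ZMod p, (((A * B) (C.φ (0, b)) (C.φ (j, c)) : ℚ) : ℂ)
      = ∑ i : ZMod p, ((A (C.φ (0, b)) (C.φ (i, 0)) : ℚ) : ℂ) * ((B (C.φ (i, 0)) (C.φ (j, c)) : ℚ) : ℂ)
      + ∑ i : ZMod p, ((A (C.φ (0, b)) (C.φ (i, 1)) : ℚ) : ℂ) * ((B (C.φ (i, 1)) (C.φ (j, c)) : ℚ) : ℂ) := by
    intro j
    rw [Matrix.mul_apply, C.sum_coord]
    push_cast
    rw [Finset.sum_add_distrib]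
  rw [M_apply, Matrix.mul_apply, Fin.sum_univ_two]
  calc ∑ j : ZMod p, (((A * B) (C.φ (0, b)) (C.φ (j, c)) : ℚ) : ℂ) * e (l * j)
      = ∑ j : ZMod p, (∑ i : ZMod p, ((A (C.φ (0, b)) (C.φ (i, 0)) : ℚ) : ℂ) * ((B (C.φ (i, 0)) (C.φ (j, c)) : ℚ) : ℂ)) * e (l * j)
        + ∑ j : ZMod p, (∑ i : ZMod p, ((A (C.φ (0, b)) (C.φ (i, 1)) : ℚ) : ℂ) * ((B (C.φ (i, 1)) (C.φ (j, c)) : ℚ) : ℂ)) * e (l * j) := by
        rw [← Finset.sum_add_distrib]
        refine Finset.sum_congr rfl fun j _ => ?_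
        rw [hsum j, add_mul]
    _ = M C l A b 0 * M C l B 0 c + M C l A b 1 * M C l B 1 c := by
        congr 1
        · exact conv_aux _ _ _ _ _ (hinner 0)
        · exact conv_aux _ _ _ _ _ (hinner 1)

theorem M_transpose (C : Coord p α G) (l : ZMod p) {A : Matrix α α ℚ} (hA : IsInv G A) :
    M C l Aᵀ = (M C l A)ᴴ := by
  ext b c
  rw [Matrix.conjTranspose_apply, M_apply, M_apply]
  simp only [Matrix.transpose_apply, star_sum, star_mul']
  rw [← Equiv.sum_comp (Equiv.neg (ZMod p))]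
  refine Finset.sum_congr rfl fun j _ => ?_
  have h1 := C.kernel_coord (fun y z => A y z) (fun y z => hA C.x y z) (-j) 0 c b
  simp only [sub_neg_eq_add, zero_add] at h1
  simp only [Equiv.neg_apply]
  rw [h1]
  have h2 : e (l * -j) = star (e (l * j)) := by
    rw [mul_neg, e_neg]
    rfl
  rw [h2]
  simp

lemma trace_M (C : Coord p α G) (l : ZMod p) (A : Matrix α α ℚ) :
    (M C l A).trace = ∑ j : ZMod p, ((A (C.φ (0, 0)) (C.φ (j, 0)) + A (C.φ (0, 1)) (C.φ (j, 1)) : ℚ) : ℂ)
      * e (l * j) := by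
  rw [Matrix.trace_fin_two, M_apply, M_apply, ← Finset.sum_add_distrib]
  refine Finset.sum_congr rfl fun j _ => ?_
  push_cast
  ring

/-! ### Two by two matrices -/

lemma idem_trace (E : Matrix (Fin 2) (Fin 2) ℂ) (h : E * E = E) :
    E.trace = 0 ∨ E.trace = 1 ∨ E.trace = 2 := by
  have h00 := congrFun (congrFun h 0) 0
  have h01 := congrFun (congrFun h 0) 1
  have h10 := congrFun (congrFun h 1) 0
  have h11 := congrFun (congrFun h 1) 1
  simp only [Matrix.mul_apply, Fin.sum_univ_two] at h00 h01 h10 h11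
  rw [Matrix.trace_fin_two]
  by_cases hs : E 0 0 + E 1 1 = 1
  · exact Or.inr (Or.inl hs)
  · have hb : E 0 1 = 0 := by
      have : E 0 1 * (E 0 0 + E 1 1 - 1) = 0 := by linear_combination h01
      exact (mul_eq_zero.mp this).resolve_right (sub_ne_zero.mpr hs)
    have hc : E 1 0 = 0 := by
      have : E 1 0 * (E 0 0 + E 1 1 - 1) = 0 := by linear_combination h10
      exact (mul_eq_zero.mp this).resolve_right (sub_ne_zero.mpr hs)
    rw [hb] at h00 h11
    have h0 : E 0 0 * (E 0 0 - 1) = 0 := by linear_combination h00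
    have h1 : E 1 1 * (E 1 1 - 1) = 0 := by linear_combination h11
    rcases mul_eq_zero.mp h0 with h0 | h0 <;> rcases mul_eq_zero.mp h1 with h1 | h1
    · left; rw [h0, h1, add_zero]
    · right; left; rw [h0, sub_eq_zero.mp h1, zero_add]
    · right; left; rw [h1, sub_eq_zero.mp h0, add_zero]
    · right; right; rw [sub_eq_zero.mp h0, sub_eq_zero.mp h1]; norm_num

/-- The spectral form of `M`: with `e` a rank one projector. -/
lemma spectral (N e' : Matrix (Fin 2) (Fin 2) ℂ) (a : ℂ) (htr : e'.trace = 1)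
    (h1 : N * e' = a • e') (h2 : e' * N = a • e') (b c : Fin 2) :
    N b c = (if b = c then (N.trace - a) else 0) + (2 * a - N.trace) * e' b c := by
  have h100 := congrFun (congrFun h1 0) 0
  have h101 := congrFun (congrFun h1 0) 1
  have h110 := congrFun (congrFun h1 1) 0
  have h111 := congrFun (congrFun h1 1) 1
  have h200 := congrFun (congrFun h2 0) 0
  have h201 := congrFun (congrFun h2 0) 1
  have h210 := congrFun (congrFun h2 1) 0
  have h211 := congrFun (congrFun h2 1) 1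
  simp only [Matrix.mul_apply, Fin.sum_univ_two, Matrix.smul_apply, smul_eq_mul] at h100 h101 h110 h111 h200 h201 h210 h211
  rw [Matrix.trace_fin_two] at htr
  rw [Matrix.trace_fin_two]
  fin_cases b <;> fin_cases c <;> simp only [Fin.zero_eta, Fin.mk_one, Fin.isValue, if_true,
    one_ne_zero, zero_ne_one, if_false, zero_add]
  · linear_combination h200 - h111 + (N 1 1 - a) * htr
  · linear_combination h101 + h201 - N 0 1 * htr
  · linear_combination h110 + h210 - N 1 0 * htr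
  · linear_combination h211 - h100 + (N 0 0 - a) * htr

/-- The Frobenius norm of `N = β + (a - β) e`. -/
lemma frob_norm (N e' : Matrix (Fin 2) (Fin 2) ℂ) (a : ℂ) (ha : (starRingEnd ℂ) a = a)
    (he : e' * e' = e') (htr : e'.trace = 1) (hh : e'ᴴ = e')
    (h1 : N * e' = a • e') (h2 : e' * N = a • e') :
    ∑ b, ∑ c, N b c * (starRingEnd ℂ) (N b c)
      = a * a + (N.trace - a) * (starRingEnd ℂ) (N.trace - a) := by
  have hs := spectral N e' a htr h1 h2
  set β := N.trace - a with hβ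
  have hγ : 2 * a - N.trace = a - β := by rw [hβ]; ring
  rw [hγ] at hs
  set γ := a - β with hγ'
  have he00 := congrFun (congrFun he 0) 0
  have he11 := congrFun (congrFun he 1) 1
  simp only [Matrix.mul_apply, Fin.sum_univ_two] at he00 he11
  rw [Matrix.trace_fin_two] at htr
  have hc : ∀ b c, (starRingEnd ℂ) (e' b c) = e' c b := by
    intro b c
    have := congrFun (congrFun hh c) b
    rw [Matrix.conjTranspose_apply] at this
    exact this
  simp only [Fin.sum_univ_two, hs]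
  simp only [map_add, map_mul, hc, Fin.isValue, if_true, one_ne_zero, zero_ne_one, if_false, map_zero, zero_add]
  have hβγ : β + γ = a := by rw [hγ']; ring
  have hβγ' : (starRingEnd ℂ) β + (starRingEnd ℂ) γ = a := by
    rw [← map_add, hβγ, ha]
  set β' := (starRingEnd ℂ) β
  set γ' := (starRingEnd ℂ) γ
  have h3 : a * a = (β + γ) * (β' + γ') := by rw [hβγ, hβγ']
  rw [h3]
  have h4 : e' 0 0 * e' 0 0 + e' 1 1 * e' 1 1 + 2 * (e' 0 1 * e' 1 0) = 1 := by
    linear_combination he00 + he11 + htr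
  linear_combination (β * γ' + γ * β') * htr + γ * γ' * h4

/-! ### The trichotomy -/

section Tri

variable (C : Coord p α G) [IsPretransitive G α]

/-- The diagonal block values of `T`. -/
noncomputable def u (b : Fin 2) (j : ZMod p) : ℚ := C.T (C.φ (0, b)) (C.φ (j, b))

lemma u_zero (b : Fin 2) : u C b 0 = 1 := C.T_diag _

lemma M_T_sq (l : ZMod p) : M C l C.T * M C l C.T = (C.τ : ℂ) • M C l C.T := by
  rw [← M_mul C l C.T_inv, C.T_mul_T, M_smul]

lemma τ_ne : C.τ ≠ 0 := by
  have h := C.τ_ge_one (C.φ (0, 0))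
  linarith

lemma T_sheet : C.sheet C.T 0 0 = C.τ / 2 ∧ C.sheet C.T 1 1 = C.τ / 2 := by
  have h1 := C.sheet_row C.T 0
  have h2 := C.sheet_row C.T 1
  rw [C.T_row_zero] at h1 h2
  obtain ⟨h3, h4⟩ := Coord.sheet_diff C C.T_inv
  have h5 : C.a C.T = C.τ := rfl
  rw [h5] at h3 h4
  constructor <;> linarith

/-- The trichotomy for the rank of `T` on a non-trivial isotypic block of `⟨x⟩`. -/
theorem trichotomy : ∃ t : ℚ, (t = 0 ∨ t = 1 ∨ t = 2) ∧
    (∀ j : ZMod p, j ≠ 0 → u C 0 j + u C 1 j = 2 - C.τ * t) ∧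
    2 * (p : ℚ) = C.τ * (1 + ((p : ℚ) - 1) * t) := by
  have hτ := τ_ne C
  have hτc : (C.τ : ℂ) ≠ 0 := by exact_mod_cast hτ
  set E : Matrix (Fin 2) (Fin 2) ℂ := (C.τ : ℂ)⁻¹ • M C 1 C.T with hE
  have hEE : E * E = E := by
    rw [hE, Matrix.smul_mul, Matrix.mul_smul, M_T_sq, smul_smul, smul_smul]
    congr 1
    field_simp
  have htr : (M C 1 C.T).trace = (C.τ : ℂ) * E.trace := by
    rw [hE, Matrix.trace_smul, smul_eq_mul, mul_inv_cancel_left₀ hτc]
  obtain ⟨t, ht, htE⟩ : ∃ t : ℚ, (t = 0 ∨ t = 1 ∨ t = 2) ∧ E.trace = (t : ℂ) := by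
    rcases idem_trace E hEE with h | h | h
    · exact ⟨0, Or.inl rfl, by simp [h]⟩
    · exact ⟨1, Or.inr (Or.inl rfl), by simp [h]⟩
    · exact ⟨2, Or.inr (Or.inr rfl), by simp [h]⟩
  -- the rational relation
  let q : ZMod p → ℚ := fun j => u C 0 j + u C 1 j - if j = 0 then C.τ * t else 0
  have hrel : ∑ j, (q j : ℂ) * e j = 0 := by
    have h1 : (M C 1 C.T).trace = ∑ j : ZMod p, ((u C 0 j + u C 1 j : ℚ) : ℂ) * e j := by
      rw [trace_M]
      refine Finset.sum_congr rfl fun j _ => ?_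
      rw [one_mul]
      rfl
    have h2 : ∑ j : ZMod p, (((if j = 0 then C.τ * t else 0 : ℚ)) : ℂ) * e j = (C.τ : ℂ) * t := by
      rw [Finset.sum_eq_single 0]
      · simp
      · intro j _ hj
        simp [hj]
      · simp
    have h3 : ∑ j, (q j : ℂ) * e j = ∑ j : ZMod p, ((u C 0 j + u C 1 j : ℚ) : ℂ) * e j
        - ∑ j : ZMod p, (((if j = 0 then C.τ * t else 0 : ℚ)) : ℂ) * e j := by
      rw [← Finset.sum_sub_distrib]
      refine Finset.sum_congr rfl fun j _ => ?_
      simp only [q]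
      push_cast
      ring
    rw [h3, ← h1, htr, htE, h2, sub_self]
  have hconst : ∀ j, q j = q 0 := fun j => constant_of_sum_eq_zero q hrel j 0
  have hq0 : q 0 = 2 - C.τ * t := by
    simp only [q, u_zero, if_true]
    norm_num
  refine ⟨t, ht, ?_, ?_⟩
  · intro j hj
    have := hconst j
    rw [hq0] at this
    simpa [q, hj] using this
  · have hsum : ∑ j, q j = (p : ℚ) * (2 - C.τ * t) := by
      rw [Finset.sum_congr rfl (fun j _ => hconst j), hq0]
      simp only [Finset.sum_const, Finset.card_univ, ZMod.card, nsmul_eq_mul]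
    have h5 : ∑ j : ZMod p, (if j = 0 then C.τ * t else 0 : ℚ) = C.τ * t := by
      simp
    have h6 : ∑ j, q j = C.τ / 2 + C.τ / 2 - C.τ * t := by
      obtain ⟨h7, h8⟩ := T_sheet C
      simp only [q]
      rw [Finset.sum_sub_distrib, Finset.sum_add_distrib, h5]
      congr 2
    rw [hsum] at h6
    linear_combination h6

end Tri

end Cfsg.Agent.Lib.Wielandt.Block
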