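import Cfsg.Agent.Lib.Wielandt.Block

/-!
# The case of rank one on the non-trivial characters of `⟨x⟩`
-/

set_option autoImplicit false

namespace Cfsg.Agent.Lib.Wielandt.CaseOne

open Matrix MulAction
open Cfsg.Agent.Lib.Wielandt.Fourier Cfsg.Agent.Lib.Wielandt.Kernel
  Cfsg.Agent.Lib.Wielandt.Block

variable {p : ℕ} [Fact p.Prime] {α : Type*} [Fintype α] [DecidableEq α]
  {G : Type*} [Group G] [Fintype G] [MulAction G α] {C : Coord p α G} [IsPretransitive G α]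

/-- The numerical hypotheses of the case. -/
structure One (C : Coord p α G) : Prop where
  hτ : C.τ = 2
  hu : ∀ j : ZMod p, j ≠ 0 → u C 0 j + u C 1 j = 0

variable (h : One C)

include h

lemma trace_M_T (l : ZMod p) : (M C l C.T).trace = 2 := by
  rw [trace_M, Finset.sum_eq_single 0]
  · have h1 := u_zero C 0
    have h2 := u_zero C 1
    unfold u at h1 h2
    rw [h1, h2]
    simp
    norm_num
  · intro j _ hj
    have h3 : C.T (C.φ (0, 0)) (C.φ (j, 0)) + C.T (C.φ (0, 1)) (C.φ (j, 1)) = 0 := h.hu j hj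
    rw [h3]
    simp
  · simp

/-- The rank one projector of `T` at `l`. -/
noncomputable def eL (C : Coord p α G) (l : ZMod p) : Matrix (Fin 2) (Fin 2) ℂ :=
  (1 / 2 : ℂ) • M C l C.T

lemma eL_trace (l : ZMod p) : (eL C l).trace = 1 := by
  rw [eL, Matrix.trace_smul, trace_M_T h, smul_eq_mul]
  norm_num

lemma eL_idem (l : ZMod p) : eL C l * eL C l = eL C l := by
  rw [eL, Matrix.smul_mul, Matrix.mul_smul, M_T_sq, h.hτ, smul_smul, smul_smul]
  congr 1
  norm_num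

omit h in
lemma eL_herm (l : ZMod p) : (eL C l)ᴴ = eL C l := by
  have h1 := M_transpose C l C.T_inv
  rw [C.T_transpose] at h1
  rw [eL, Matrix.conjTranspose_smul, ← h1]
  congr 1
  simp

omit h in
lemma M_eL {A : Matrix α α ℚ} (hA : IsInv G A) (l : ZMod p) :
    M C l A * eL C l = (C.a A : ℂ) • eL C l := by
  have h1 : M C l (A * C.T) = M C l A * M C l C.T := M_mul C l C.T_inv
  rw [C.mul_T hA, M_smul] at h1
  rw [eL, Matrix.mul_smul, ← h1, smul_comm]

omit h in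
lemma eL_M {A : Matrix α α ℚ} (hA : IsInv G A) (l : ZMod p) :
    eL C l * M C l A = (C.a A : ℂ) • eL C l := by
  have h1 : M C l (C.T * A) = M C l C.T * M C l A := M_mul C l hA
  rw [C.T_mul hA, M_smul] at h1
  rw [eL, Matrix.smul_mul, ← h1, smul_comm]

/-- Frobenius norm at every character. -/
lemma frob {A : Matrix α α ℚ} (hA : IsInv G A) (l : ZMod p) :
    ∑ b, ∑ c, M C l A b c * (starRingEnd ℂ) (M C l A b c)
      = (C.a A : ℂ) * C.a A + ((M C l A).trace - C.a A) * (starRingEnd ℂ) ((M C l A).trace - C.a A) :=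
  frob_norm _ (eL C l) _ (by simp) (eL_idem h l) (eL_trace h l) (eL_herm l) (M_eL hA l) (eL_M hA l)

/-- Parseval applied to the Frobenius identity. -/
theorem parseval_id {A : Matrix α α ℚ} (hA : IsInv G A) :
    ∑ b : Fin 2, ∑ c : Fin 2, ∑ j : ZMod p, A (C.φ (0, b)) (C.φ (j, c)) ^ 2
      = C.a A * C.a A + ∑ j : ZMod p, (A (C.φ (0, 0)) (C.φ (j, 0)) + A (C.φ (0, 1)) (C.φ (j, 1))
          - if j = 0 then C.a A else 0) ^ 2 := by
  have hp : (p : ℂ) ≠ 0 := Nat.cast_ne_zero.mpr (Fact.out : p.Prime).ne_zero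
  -- the left hand side
  have hL : ∑ l : ZMod p, ∑ b, ∑ c, M C l A b c * (starRingEnd ℂ) (M C l A b c)
      = (p : ℂ) * ((∑ b : Fin 2, ∑ c : Fin 2, ∑ j : ZMod p, A (C.φ (0, b)) (C.φ (j, c)) ^ 2 : ℚ) : ℂ) := by
    rw [Finset.sum_comm]
    rw [Rat.cast_sum, Finset.mul_sum]
    refine Finset.sum_congr rfl fun b _ => ?_
    rw [Finset.sum_comm, Rat.cast_sum, Finset.mul_sum]
    refine Finset.sum_congr rfl fun c _ => ?_
    simp only [M_apply]
    rw [parseval, Rat.cast_sum]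
    congr 1
    refine Finset.sum_congr rfl fun j _ => ?_
    rw [map_ratCast, pow_two, Rat.cast_mul]
  set g : ZMod p → ℚ := fun j => A (C.φ (0, 0)) (C.φ (j, 0)) + A (C.φ (0, 1)) (C.φ (j, 1))
          - if j = 0 then C.a A else 0 with hg
  have hβ : ∀ l : ZMod p, (M C l A).trace - C.a A = ∑ j : ZMod p, ((g j : ℚ) : ℂ) * e (l * j) := by
    intro l
    have h2 : (C.a A : ℂ) = ∑ j : ZMod p, (((if j = 0 then C.a A else 0 : ℚ)) : ℂ) * e (l * j) := by
      rw [Finset.sum_eq_single 0]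
      · simp
      · intro j _ hj
        simp [hj]
      · simp
    rw [trace_M, h2, ← Finset.sum_sub_distrib]
    refine Finset.sum_congr rfl fun j _ => ?_
    simp only [hg]
    push_cast
    ring
  have hR : ∑ l : ZMod p, ((C.a A : ℂ) * C.a A + ((M C l A).trace - C.a A) * (starRingEnd ℂ) ((M C l A).trace - C.a A))
      = (p : ℂ) * ((C.a A * C.a A + ∑ j : ZMod p, g j ^ 2 : ℚ) : ℂ) := by
    rw [Finset.sum_add_distrib]
    simp_rw [hβ]
    rw [parseval]
    simp only [Finset.sum_const, Finset.card_univ, ZMod.card, nsmul_eq_mul]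
    rw [Rat.cast_add, Rat.cast_mul, Rat.cast_sum, mul_add]
    congr 2
    refine Finset.sum_congr rfl fun j _ => ?_
    rw [map_ratCast, pow_two, Rat.cast_mul]
  have hfr := Finset.sum_congr (rfl : (Finset.univ : Finset (ZMod p)) = Finset.univ) (fun l _ => frob h hA l)
  rw [hL, hR] at hfr
  have h3 := mul_left_cancel₀ hp hfr
  exact_mod_cast h3

/-- The fundamental identity for a `0`-`1` kernel with vanishing diagonal. -/
theorem key_identity {A : Matrix α α ℚ} (hA : IsInv G A) (h01 : ∀ y z, A y z = 0 ∨ A y z = 1)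
    (hdiag : ∀ y, A y y = 0) :
    C.sheet A 0 0 = ((∑ z, A (C.φ (0, 0)) z) + C.a A) / 2 ∧
    C.sheet A 1 1 = ((∑ z, A (C.φ (0, 0)) z) + C.a A) / 2 ∧
    2 * ∑ j : ZMod p, A (C.φ (0, 0)) (C.φ (j, 0)) * A (C.φ (0, 1)) (C.φ (j, 1))
      = (∑ z, A (C.φ (0, 0)) z) - C.a A - 2 * (C.a A * C.a A) := by
  set k := ∑ z, A (C.φ (0, 0)) z with hk
  have hsq : ∀ y z, A y z ^ 2 = A y z := by
    intro y z
    rcases h01 y z with h1 | h1 <;> simp [h1]
  have hrow1 : C.sheet A 0 0 + C.sheet A 0 1 = k := C.sheet_row A 0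
  have hrow2 : C.sheet A 1 0 + C.sheet A 1 1 = k := by
    rw [C.sheet_row A 1, hk]
    exact hA.row_eq _ _
  obtain ⟨hd1, hd2⟩ := Coord.sheet_diff C hA
  have hs00 : C.sheet A 0 0 = (k + C.a A) / 2 := by linarith
  have hs11 : C.sheet A 1 1 = (k + C.a A) / 2 := by linarith
  refine ⟨hs00, hs11, ?_⟩
  have hP := parseval_id h hA
  simp only [hsq, Fin.sum_univ_two] at hP
  have hL : ∑ j : ZMod p, A (C.φ (0, 0)) (C.φ (j, 0)) + ∑ j : ZMod p, A (C.φ (0, 0)) (C.φ (j, 1))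
      + (∑ j : ZMod p, A (C.φ (0, 1)) (C.φ (j, 0)) + ∑ j : ZMod p, A (C.φ (0, 1)) (C.φ (j, 1))) = 2 * k := by
    have h1 : ∑ j : ZMod p, A (C.φ (0, 0)) (C.φ (j, 0)) + ∑ j : ZMod p, A (C.φ (0, 0)) (C.φ (j, 1)) = k := hrow1
    have h2 : ∑ j : ZMod p, A (C.φ (0, 1)) (C.φ (j, 0)) + ∑ j : ZMod p, A (C.φ (0, 1)) (C.φ (j, 1)) = k := hrow2
    rw [h1, h2]
    ring
  rw [hL] at hP
  -- expand the right hand side
  have hexp : ∀ j : ZMod p, (A (C.φ (0, 0)) (C.φ (j, 0)) + A (C.φ (0, 1)) (C.φ (j, 1))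
      - if j = 0 then C.a A else 0) ^ 2
      = A (C.φ (0, 0)) (C.φ (j, 0)) + A (C.φ (0, 1)) (C.φ (j, 1))
        + 2 * (A (C.φ (0, 0)) (C.φ (j, 0)) * A (C.φ (0, 1)) (C.φ (j, 1)))
        + (if j = 0 then C.a A * C.a A else 0) := by
    intro j
    by_cases hj : j = 0
    · subst hj
      simp only [if_true, hdiag]
      ring
    · simp only [hj, if_false]
      have h1 := hsq (C.φ (0, 0)) (C.φ (j, 0))
      have h2 := hsq (C.φ (0, 1)) (C.φ (j, 1))
      linear_combination h1 + h2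
  simp_rw [hexp] at hP
  rw [Finset.sum_add_distrib, Finset.sum_add_distrib, Finset.sum_add_distrib, Finset.sum_ite_eq'] at hP
  simp only [Finset.mem_univ, if_true] at hP
  rw [← Finset.mul_sum] at hP
  have hs00' : ∑ j : ZMod p, A (C.φ (0, 0)) (C.φ (j, 0)) = (k + C.a A) / 2 := hs00
  have hs11' : ∑ j : ZMod p, A (C.φ (0, 1)) (C.φ (j, 1)) = (k + C.a A) / 2 := hs11
  rw [hs00', hs11'] at hP
  linarith

omit h in
lemma orb_row_eq (y₀ z₀ y y' : α) : ∑ z, orb G y₀ z₀ y z = ∑ z, orb G y₀ z₀ y' z :=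
  (orb_inv y₀ z₀).row_eq y y'

omit h in
lemma orb_row_pos (y₀ z₀ y : α) : 1 ≤ ∑ z, orb G y₀ z₀ y z := by
  rw [orb_row_eq y₀ z₀ y y₀]
  have h1 : orb G y₀ z₀ y₀ z₀ ≤ ∑ z, orb G y₀ z₀ y₀ z :=
    Finset.single_le_sum (f := fun z => orb G y₀ z₀ y₀ z)
      (fun z _ => by
        rcases orb_eq_zero_or_one (G := G) y₀ z₀ y₀ z with h | h <;> simp [h])
      (Finset.mem_univ z₀)
  rwa [orb_self] at h1

omit h in
lemma T_eq_of_orb {y₀ z₀ y z : α} (ho : orb G y₀ z₀ y z = 1) : C.T y z = C.T y₀ z₀ := by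
  obtain ⟨g, rfl, rfl⟩ := (orb_eq_one_iff y₀ z₀ y z).mp ho
  exact C.T_inv g y₀ z₀

/-- Non-zero eigenvalue: the valency is determined. -/
theorem val_of_a_ne_zero {y₀ z₀ : α} (hy : y₀ ≠ z₀) (ha : C.a (orb G y₀ z₀) ≠ 0) :
    (∑ z, orb G y₀ z₀ (C.φ (0, 0)) z) = C.a (orb G y₀ z₀) + 2 * (C.a (orb G y₀ z₀) * C.a (orb G y₀ z₀)) := by
  set A := orb G y₀ z₀ with hA
  have hk := C.T_mul_val y₀ z₀
  rw [← hA] at hk
  obtain ⟨-, -, h3⟩ := key_identity h (orb_inv y₀ z₀) (orb_eq_zero_or_one y₀ z₀)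
    (fun y => orb_diag y₀ z₀ y hy)
  have hzero : ∀ j : ZMod p, A (C.φ (0, 0)) (C.φ (j, 0)) * A (C.φ (0, 1)) (C.φ (j, 1)) = 0 := by
    intro j
    rcases orb_eq_zero_or_one (G := G) y₀ z₀ (C.φ (0, 0)) (C.φ (j, 0)) with h1 | h1
    · rw [← hA] at h1
      rw [h1, zero_mul]
    · rcases orb_eq_zero_or_one (G := G) y₀ z₀ (C.φ (0, 1)) (C.φ (j, 1)) with h2 | h2
      · rw [← hA] at h2
        rw [h2, mul_zero]
      · exfalso
        have hj : j ≠ 0 := by
          rintro rfl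
          rw [orb_diag y₀ z₀ _ hy] at h1
          exact zero_ne_one h1
        have h4 := T_eq_of_orb (C := C) h1
        have h5 := T_eq_of_orb (C := C) h2
        have h6 := h.hu j hj
        unfold u at h6
        rw [h4, h5] at h6
        have h7 : C.T y₀ z₀ = 0 := by linarith
        apply ha
        rw [← hk, h7, zero_mul]
  rw [Finset.sum_eq_zero (fun j _ => hzero j), mul_zero] at h3
  linarith

/-- Zero eigenvalue: the diagonal block of `T` vanishes. -/
theorem u_eq_zero_of_a_eq_zero {y₀ z₀ : α} (hy : y₀ ≠ z₀) (ha : C.a (orb G y₀ z₀) = 0)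
    (j : ZMod p) (hj : j ≠ 0) : u C 0 j = 0 := by
  set A := orb G y₀ z₀ with hA
  have hAinv : IsInv G A := orb_inv y₀ z₀
  have h01 : ∀ y z, A y z = 0 ∨ A y z = 1 := orb_eq_zero_or_one y₀ z₀
  have hkpos : 1 ≤ ∑ z, A (C.φ (0, 0)) z := orb_row_pos y₀ z₀ _
  obtain ⟨h1, h2, h3⟩ := key_identity h hAinv h01 (fun y => orb_diag y₀ z₀ y hy)
  rw [ha] at h1 h2 h3
  set k := ∑ z, A (C.φ (0, 0)) z with hk
  have hnn : ∑ j : ZMod p, A (C.φ (0, 0)) (C.φ (j, 0)) * A (C.φ (0, 1)) (C.φ (j, 1)) = k / 2 := by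
    linarith
  -- the two diagonal blocks agree
  have hagree : ∀ j : ZMod p, A (C.φ (0, 0)) (C.φ (j, 0)) = A (C.φ (0, 1)) (C.φ (j, 1)) := by
    have hnonneg1 : ∀ j ∈ (Finset.univ : Finset (ZMod p)),
        0 ≤ A (C.φ (0, 0)) (C.φ (j, 0)) * (1 - A (C.φ (0, 1)) (C.φ (j, 1))) := by
      intro j _
      rcases h01 (C.φ (0, 0)) (C.φ (j, 0)) with h | h <;> rcases h01 (C.φ (0, 1)) (C.φ (j, 1)) with h' | h' <;>
        simp [h, h']
    have hnonneg2 : ∀ j ∈ (Finset.univ : Finset (ZMod p)),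
        0 ≤ A (C.φ (0, 1)) (C.φ (j, 1)) * (1 - A (C.φ (0, 0)) (C.φ (j, 0))) := by
      intro j _
      rcases h01 (C.φ (0, 0)) (C.φ (j, 0)) with h | h <;> rcases h01 (C.φ (0, 1)) (C.φ (j, 1)) with h' | h' <;>
        simp [h, h']
    have hs1 : ∑ j : ZMod p, A (C.φ (0, 0)) (C.φ (j, 0)) * (1 - A (C.φ (0, 1)) (C.φ (j, 1))) = 0 := by
      simp_rw [mul_sub, mul_one]
      rw [Finset.sum_sub_distrib, hnn]
      have : ∑ j : ZMod p, A (C.φ (0, 0)) (C.φ (j, 0)) = (k + 0) / 2 := h1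
      rw [this]
      ring
    have hs2 : ∑ j : ZMod p, A (C.φ (0, 1)) (C.φ (j, 1)) * (1 - A (C.φ (0, 0)) (C.φ (j, 0))) = 0 := by
      simp_rw [mul_sub, mul_one]
      have hc : ∑ j : ZMod p, A (C.φ (0, 1)) (C.φ (j, 1)) * A (C.φ (0, 0)) (C.φ (j, 0)) = k / 2 := by
        rw [← hnn]
        exact Finset.sum_congr rfl fun j _ => mul_comm _ _
      rw [Finset.sum_sub_distrib, hc]
      have : ∑ j : ZMod p, A (C.φ (0, 1)) (C.φ (j, 1)) = (k + 0) / 2 := h2
      rw [this]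
      ring
    rw [Finset.sum_eq_zero_iff_of_nonneg hnonneg1] at hs1
    rw [Finset.sum_eq_zero_iff_of_nonneg hnonneg2] at hs2
    intro j
    have h4 := hs1 j (Finset.mem_univ j)
    have h5 := hs2 j (Finset.mem_univ j)
    rcases h01 (C.φ (0, 0)) (C.φ (j, 0)) with h6 | h6 <;> rcases h01 (C.φ (0, 1)) (C.φ (j, 1)) with h7 | h7
    · rw [h6, h7]
    · rw [h6, h7] at h5
      norm_num at h5
    · rw [h6, h7] at h4
      norm_num at h4
    · rw [h6, h7]
  -- Fourier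
  set N := M C 1 A with hN
  have hN00 : N 0 0 = N 1 1 := by
    rw [hN, M_apply, M_apply]
    exact Finset.sum_congr rfl fun j _ => by rw [hagree j]
  have hNne : N 0 0 ≠ 0 := by
    intro h0
    have hrel : ∑ j : ZMod p, ((A (C.φ (0, 0)) (C.φ (j, 0)) : ℚ) : ℂ) * e j = 0 := by
      rw [← h0, hN, M_apply]
      exact Finset.sum_congr rfl fun j _ => by rw [one_mul]
    have hc := constant_of_sum_eq_zero (fun j : ZMod p => A (C.φ (0, 0)) (C.φ (j, 0))) hrel
    have h00 : A (C.φ (0, 0)) (C.φ (0, 0)) = 0 := orb_diag y₀ z₀ _ hy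
    have hall : ∀ j : ZMod p, A (C.φ (0, 0)) (C.φ (j, 0)) = 0 := fun j => by
      rw [← h00]
      exact hc j 0
    have h6 : C.sheet A 0 0 = 0 := Finset.sum_eq_zero fun j _ => hall j
    rw [h6] at h1
    linarith
  have hs := spectral N (eL C 1) (C.a A : ℂ) (eL_trace h 1) (M_eL hAinv 1) (eL_M hAinv 1)
  have ha' : (C.a A : ℂ) = 0 := by
    rw [ha]
    simp
  rw [ha'] at hs
  have htrN : N.trace = 2 * N 0 0 := by
    rw [Matrix.trace_fin_two, ← hN00]
    ring
  have htrne : N.trace ≠ 0 := by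
    rw [htrN]
    exact mul_ne_zero two_ne_zero hNne
  have hs00 := hs 0 0
  have hs11 := hs 1 1
  simp only [if_true, sub_zero, mul_zero, zero_sub] at hs00 hs11
  have heq : eL C 1 0 0 = eL C 1 1 1 := by
    have h7 : N.trace * (eL C 1 0 0 - eL C 1 1 1) = 0 := by
      linear_combination hs00 - hs11 - hN00
    exact sub_eq_zero.mp ((mul_eq_zero.mp h7).resolve_left htrne)
  have htre := eL_trace h (C := C) 1
  rw [Matrix.trace_fin_two, ← heq] at htre
  have he00 : eL C 1 0 0 = 1 / 2 := by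
    linear_combination htre / 2
  have hT00 : M C 1 C.T 0 0 = 1 := by
    have h8 : eL C 1 0 0 = (1 / 2 : ℂ) * M C 1 C.T 0 0 := rfl
    rw [h8] at he00
    linear_combination 2 * he00
  let q : ZMod p → ℚ := fun j => u C 0 j - if j = 0 then 1 else 0
  have hrel : ∑ j, (q j : ℂ) * e j = 0 := by
    have h9 : ∑ j : ZMod p, (((if j = 0 then 1 else 0 : ℚ)) : ℂ) * e j = 1 := by
      rw [Finset.sum_eq_single 0]
      · simp
      · intro j _ hj
        simp [hj]
      · simp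
    have h10 : M C 1 C.T 0 0 = ∑ j : ZMod p, ((u C 0 j : ℚ) : ℂ) * e j := by
      rw [M_apply]
      exact Finset.sum_congr rfl fun j _ => by rw [one_mul]; rfl
    have h11 : ∑ j, (q j : ℂ) * e j = ∑ j : ZMod p, ((u C 0 j : ℚ) : ℂ) * e j
        - ∑ j : ZMod p, (((if j = 0 then 1 else 0 : ℚ)) : ℂ) * e j := by
      rw [← Finset.sum_sub_distrib]
      refine Finset.sum_congr rfl fun j _ => ?_
      simp only [q]
      push_cast
      ring
    rw [h11, ← h10, hT00, h9, sub_self]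
  have hc := constant_of_sum_eq_zero q hrel j 0
  simp only [q, u_zero, if_true, hj, if_false, sub_zero, sub_self] at hc
  exact hc

/-- Off-diagonal values of `T` do not vanish, if there is no orbital of valency `1`. -/
theorem T_ne_zero (hno : ∀ y₀ z₀ : α, y₀ ≠ z₀ → (∑ z, orb G y₀ z₀ y₀ z) ≠ 1) {y z : α} (hyz : y ≠ z) :
    C.T y z ≠ 0 := by
  intro hT
  have hk := C.T_mul_val y z
  rw [hT, zero_mul] at hk
  have hu0 := u_eq_zero_of_a_eq_zero h hyz hk.symm
  -- a point with non-zero value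
  obtain ⟨z', hz', hTz'⟩ : ∃ z', C.φ (0, 0) ≠ z' ∧ C.T (C.φ (0, 0)) z' ≠ 0 := by
    by_contra hcon
    push Not at hcon
    have h0 := C.T_row_zero (C.φ (0, 0))
    rw [Finset.sum_eq_single (C.φ (0, 0)) (fun z _ hz => hcon z (Ne.symm hz)) (by simp), C.T_diag] at h0
    exact one_ne_zero h0
  set A := orb G (C.φ (0, 0)) z' with hA
  have hk' := C.T_mul_val (C.φ (0, 0)) z'
  rw [← hA] at hk'
  have hkpos : 1 ≤ ∑ w, A (C.φ (0, 0)) w := orb_row_pos _ _ _
  have ha' : C.a A ≠ 0 := by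
    rw [← hk']
    exact mul_ne_zero hTz' (by linarith)
  have hval := val_of_a_ne_zero h hz' ha'
  rw [← hA] at hval
  obtain ⟨h1, -, -⟩ := key_identity h (C := C) (orb_inv (G := G) (C.φ (0, 0)) z') (orb_eq_zero_or_one _ _)
    (fun y => orb_diag _ _ y hz')
  rw [← hA] at h1
  have hs0 : C.sheet A 0 0 = 0 := by
    refine Finset.sum_eq_zero fun j _ => ?_
    rcases orb_eq_zero_or_one (G := G) (C.φ (0, 0)) z' (C.φ (0, 0)) (C.φ (j, 0)) with h2 | h2
    · exact h2
    · exfalso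
      by_cases hj : j = 0
      · subst hj
        rw [orb_diag _ _ _ hz'] at h2
        exact zero_ne_one h2
      · have h3 := T_eq_of_orb (C := C) h2
        have h4 := hu0 j hj
        unfold u at h4
        rw [h4] at h3
        exact hTz' h3.symm
  rw [hs0] at h1
  set a' := C.a A
  set k' := ∑ w, A (C.φ (0, 0)) w
  have h5 : k' = -a' := by linarith
  have h6 : a' * (a' + 1) = 0 := by
    rw [h5] at hval
    linear_combination (-1 / 2 : ℚ) * hval
  have h7 : a' = -1 := by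
    rcases mul_eq_zero.mp h6 with h8 | h8
    · exact absurd h8 ha'
    · linarith
  apply hno _ _ hz'
  show k' = 1
  rw [h5, h7]
  norm_num

omit h in
/-- The eigenvalue of an orbital is an integer. -/
lemma a_orb_int (y₀ z₀ : α) : ∃ n : ℤ, C.a (orb G y₀ z₀) = n := by
  have h1 : C.a (orb G y₀ z₀) ∈ (Int.castRingHom ℚ).range := by
    refine Subring.sum_mem _ fun z _ => Subring.mul_mem _ ?_ ?_
    · rcases orb_eq_zero_or_one (G := G) y₀ z₀ (C.φ (0, 0)) z with h | h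
      · rw [h]
        exact ⟨0, by simp⟩
      · rw [h]
        exact ⟨1, by simp⟩
    · unfold Coord.v
      split_ifs
      · exact ⟨1, by simp⟩
      · exact ⟨-1, by simp⟩
  obtain ⟨n, hn⟩ := h1
  exact ⟨n, hn.symm⟩

/-- The structure of the orbitals when `T` has rank one on non-trivial characters. -/
theorem main_one (hno : ∀ y₀ z₀ : α, y₀ ≠ z₀ → (∑ z, orb G y₀ z₀ y₀ z) ≠ 1) {y z₁ : α} (hy : y ≠ z₁) :
    ∃ (a : ℤ) (y₂ z₂ : α), y₂ ≠ z₂ ∧ a ≠ 0 ∧ a ≠ -1 ∧
      (∑ w, orb G y z₁ y w = (a : ℚ) * (2 * a + 1)) ∧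
      (∑ w, orb G y₂ z₂ y w = ((a : ℚ) + 1) * (2 * a + 1)) ∧
      (∀ z, z ≠ y → orb G y z₁ y z = 1 ∨ orb G y₂ z₂ y z = 1) ∧
      (∀ z, ¬ (orb G y z₁ y z = 1 ∧ orb G y₂ z₂ y z = 1)) ∧
      2 * (p : ℚ) = 1 + (2 * a + 1) ^ 2 := by
  set A := orb G y z₁ with hA
  set a₀ := C.a A with ha₀
  set k := ∑ w, A y w with hk
  set θ := C.T y z₁ with hθ
  have hkpos : 1 ≤ k := orb_row_pos _ _ _
  have hθk : θ * k = a₀ := C.T_mul_val y z₁
  have hθne : θ ≠ 0 := T_ne_zero h hno hy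
  have ha₀ne : a₀ ≠ 0 := by
    rw [← hθk]
    exact mul_ne_zero hθne (by linarith)
  have hkval : k = a₀ + 2 * (a₀ * a₀) := by
    have h1 := val_of_a_ne_zero h hy ha₀ne
    rw [orb_row_eq y z₁ (C.φ (0, 0)) y] at h1
    exact h1
  have hk1 : k ≠ 1 := hno y z₁ hy
  have ha₀1 : a₀ ≠ -1 := by
    intro h1
    apply hk1
    rw [hkval, h1]
    norm_num
  have hθ1 : θ * (1 + 2 * a₀) = 1 := by
    have h1 : a₀ * (θ * (1 + 2 * a₀) - 1) = 0 := by
      have : θ * (a₀ + 2 * (a₀ * a₀)) = a₀ := by rw [← hkval]; exact hθk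
      linear_combination this
    have h2 := (mul_eq_zero.mp h1).resolve_left ha₀ne
    linarith
  obtain ⟨n, hn⟩ := a_orb_int (C := C) (G := G) y z₁
  -- a point in the orbital on the diagonal block
  obtain ⟨-, -, -⟩ := (⟨trivial, trivial, trivial⟩ : True ∧ True ∧ True)
  obtain ⟨hs00, -, -⟩ := key_identity h (C := C) (orb_inv (G := G) y z₁) (orb_eq_zero_or_one _ _)
    (fun w => orb_diag _ _ w hy)
  rw [← hA, orb_row_eq y z₁ (C.φ (0, 0)) y, ← hA, ← hk, ← ha₀] at hs00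
  obtain ⟨j, hj⟩ : ∃ j : ZMod p, A (C.φ (0, 0)) (C.φ (j, 0)) = 1 := by
    by_contra hcon
    push Not at hcon
    have h1 : C.sheet A 0 0 = 0 := by
      refine Finset.sum_eq_zero fun j _ => ?_
      rcases orb_eq_zero_or_one (G := G) y z₁ (C.φ (0, 0)) (C.φ (j, 0)) with h2 | h2
      · exact h2
      · exact absurd h2 (hcon j)
    rw [h1, hkval] at hs00
    have h2 : a₀ * (a₀ + 1) = 0 := by linear_combination (-1 : ℚ) * hs00
    rcases mul_eq_zero.mp h2 with h3 | h3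
    · exact ha₀ne h3
    · exact ha₀1 (by linarith)
  have hj0 : j ≠ 0 := by
    rintro rfl
    rw [show A (C.φ (0, 0)) (C.φ (0, 0)) = 0 from orb_diag _ _ _ hy] at hj
    exact zero_ne_one hj
  have hu0 : u C 0 j = θ := T_eq_of_orb (C := C) hj
  have hu1 : u C 1 j = -θ := by
    have h1 := h.hu j hj0
    rw [hu0] at h1
    linarith
  set y₂ := C.φ (0, 1) with hy₂
  set z₂ := C.φ (j, 1) with hz₂
  have hy₂z₂ : y₂ ≠ z₂ := by
    intro h1
    have h2 := C.φ.injective h1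
    exact hj0 (congrArg Prod.fst h2).symm
  set A' := orb G y₂ z₂ with hA'
  set a' := C.a A' with ha'
  set k' := ∑ w, A' y w with hk'
  have hT₂ : C.T y₂ z₂ = -θ := hu1
  have hT₂k : (-θ) * k' = a' := by
    have h1 := C.T_mul_val y₂ z₂
    rw [hT₂, ← hA', orb_row_eq y₂ z₂ y₂ y] at h1
    exact h1
  have hk'pos : 1 ≤ k' := orb_row_pos _ _ _
  have ha'ne : a' ≠ 0 := by
    rw [← hT₂k]
    exact mul_ne_zero (neg_ne_zero.mpr hθne) (by linarith)
  have hk'val : k' = a' + 2 * (a' * a') := by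
    have h1 := val_of_a_ne_zero h hy₂z₂ ha'ne
    rw [orb_row_eq y₂ z₂ (C.φ (0, 0)) y] at h1
    exact h1
  have hθ2 : (-θ) * (1 + 2 * a') = 1 := by
    have h1 : a' * ((-θ) * (1 + 2 * a') - 1) = 0 := by
      have : (-θ) * (a' + 2 * (a' * a')) = a' := by rw [← hk'val]; exact hT₂k
      linear_combination this
    have h2 := (mul_eq_zero.mp h1).resolve_left ha'ne
    linarith
  have ha'eq : a' = -1 - a₀ := by
    have h1 : θ * (2 * a₀ + 2 + 2 * a') = 0 := by linear_combination hθ1 - hθ2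
    have h2 := (mul_eq_zero.mp h1).resolve_left hθne
    linarith
  have hk'eq : k' = (a₀ + 1) * (2 * a₀ + 1) := by
    rw [hk'val, ha'eq]
    ring
  have hkeq : k = a₀ * (2 * a₀ + 1) := by
    rw [hkval]
    ring
  -- values of `T` in the row of `y`
  have hTA : ∀ z, A y z = 1 → C.T y z = θ := fun z hz => T_eq_of_orb (C := C) hz
  have hTA' : ∀ z, A' y z = 1 → C.T y z = -θ := fun z hz => by
    rw [T_eq_of_orb (C := C) hz, hT₂]
  have hdisj : ∀ z, ¬ (A y z = 1 ∧ A' y z = 1) := by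
    rintro z ⟨h1, h2⟩
    have h3 := hTA z h1
    have h4 := hTA' z h2
    rw [h3] at h4
    apply hθne
    linarith
  have h01 : ∀ z, A y z = 0 ∨ A y z = 1 := fun z => orb_eq_zero_or_one _ _ _ _
  have h01' : ∀ z, A' y z = 0 ∨ A' y z = 1 := fun z => orb_eq_zero_or_one _ _ _ _
  have hsumA : ∑ z, (C.T y z * C.T y z) * A y z = θ * θ * k := by
    rw [hk, Finset.mul_sum]
    refine Finset.sum_congr rfl fun z _ => ?_
    rcases h01 z with h1 | h1
    · rw [h1]
      simp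
    · rw [h1, hTA z h1]
  have hsumA' : ∑ z, (C.T y z * C.T y z) * A' y z = θ * θ * k' := by
    rw [hk', Finset.mul_sum]
    refine Finset.sum_congr rfl fun z _ => ?_
    rcases h01' z with h1 | h1
    · rw [h1]
      simp
    · rw [h1, hTA' z h1]
      ring
  have hτ2 : ∑ z, C.T y z * C.T y z = 2 := by
    rw [← C.τ_eq y, h.hτ]
  have hθθ : θ * θ * (k + k') = 1 := by
    rw [hkeq, hk'eq]
    have : θ * θ * (a₀ * (2 * a₀ + 1) + (a₀ + 1) * (2 * a₀ + 1)) = (θ * (1 + 2 * a₀)) * (θ * (1 + 2 * a₀)) := by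
      ring
    rw [this, hθ1, one_mul]
  have hrest : ∑ z, (C.T y z * C.T y z) * (1 - A y z - A' y z) = 1 := by
    have h1 : ∀ z, (C.T y z * C.T y z) * (1 - A y z - A' y z)
        = C.T y z * C.T y z - (C.T y z * C.T y z) * A y z - (C.T y z * C.T y z) * A' y z := by
      intro z
      ring
    simp_rw [h1]
    rw [Finset.sum_sub_distrib, Finset.sum_sub_distrib, hτ2, hsumA, hsumA']
    linear_combination (-1 : ℚ) * hθθ
  have hnn : ∀ z ∈ Finset.univ.erase y, 0 ≤ (C.T y z * C.T y z) * (1 - A y z - A' y z) := by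
    intro z _
    refine mul_nonneg (mul_self_nonneg _) ?_
    rcases h01 z with h1 | h1 <;> rcases h01' z with h2 | h2
    · rw [h1, h2]; norm_num
    · rw [h1, h2]; norm_num
    · rw [h1, h2]; norm_num
    · exact absurd ⟨h1, h2⟩ (hdisj z)
  have hAyy : A y y = 0 := orb_diag _ _ _ hy
  have hA'yy : A' y y = 0 := orb_diag _ _ _ hy₂z₂
  have herase : ∑ z ∈ Finset.univ.erase y, (C.T y z * C.T y z) * (1 - A y z - A' y z) = 0 := by
    have h1 : (C.T y y * C.T y y) * (1 - A y y - A' y y) + ∑ z ∈ Finset.univ.erase y, (C.T y z * C.T y z) * (1 - A y z - A' y z)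
        = ∑ z, (C.T y z * C.T y z) * (1 - A y z - A' y z) :=
      Finset.add_sum_erase Finset.univ (fun z => (C.T y z * C.T y z) * (1 - A y z - A' y z)) (Finset.mem_univ y)
    rw [hrest, C.T_diag, hAyy, hA'yy] at h1
    linarith
  have hcover : ∀ z, z ≠ y → A y z = 1 ∨ A' y z = 1 := by
    intro z hz
    have h1 := (Finset.sum_eq_zero_iff_of_nonneg hnn).mp herase z (Finset.mem_erase.mpr ⟨hz, Finset.mem_univ z⟩)
    have hTz : C.T y z ≠ 0 := T_ne_zero h hno (Ne.symm hz)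
    have h2 : 1 - A y z - A' y z = 0 := (mul_eq_zero.mp h1).resolve_left (mul_ne_zero hTz hTz)
    rcases h01 z with h3 | h3
    · right
      linarith
    · exact Or.inl h3
  have hcount : 2 * (p : ℚ) = 1 + (2 * a₀ + 1) ^ 2 := by
    have h1 : ∑ z, (A y z + A' y z) = k + k' := Finset.sum_add_distrib
    have h2 : ∑ z, (A y z + A' y z) = ∑ z ∈ Finset.univ.erase y, (1 : ℚ) := by
      have h3 : (A y y + A' y y) + ∑ z ∈ Finset.univ.erase y, (A y z + A' y z) = ∑ z, (A y z + A' y z) :=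
        Finset.add_sum_erase Finset.univ (fun z => A y z + A' y z) (Finset.mem_univ y)
      rw [← h3, hAyy, hA'yy, zero_add, zero_add]
      refine Finset.sum_congr rfl fun z hz => ?_
      have hz' := (Finset.mem_erase.mp hz).1
      rcases hcover z hz' with h4 | h4
      · rcases h01' z with h5 | h5
        · rw [h4, h5, add_zero]
        · exact absurd ⟨h4, h5⟩ (hdisj z)
      · rcases h01 z with h5 | h5
        · rw [h4, h5, zero_add]
        · exact absurd ⟨h5, h4⟩ (hdisj z)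
    rw [h1] at h2
    simp only [Finset.sum_const, smul_eq_mul, mul_one, nsmul_eq_mul] at h2
    rw [Finset.card_erase_of_mem (Finset.mem_univ y), Finset.card_univ, Coord.card_α C] at h2
    have hp2 : 1 ≤ 2 * p := by
      have := (Fact.out : p.Prime).pos
      omega
    rw [Nat.cast_sub hp2] at h2
    push_cast at h2
    rw [hkeq, hk'eq] at h2
    linear_combination (-1 : ℚ) * h2
  refine ⟨n, y₂, z₂, hy₂z₂, ?_, ?_, ?_, ?_, hcover, hdisj, ?_⟩
  · rintro rfl
    apply ha₀ne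
    rw [ha₀, hn]
    simp
  · rintro rfl
    apply ha₀1
    rw [ha₀, hn]
    simp
  · rw [← hn]
    exact hkeq
  · rw [← hn]
    exact hk'eq
  · rw [← hn]
    exact hcount

end Cfsg.Agent.Lib.Wielandt.CaseOne
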