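import Cfsg.Agent.Lib.Wielandt.CaseOne

/-!
# Wielandt's theorem for groups with a semiregular element of order `p` on `2p` points
-/

set_option autoImplicit false

namespace Cfsg.Agent.Lib.Wielandt.Final

open Matrix MulAction
open scoped Pointwise
open Cfsg.Agent.Lib.Wielandt.Fourier Cfsg.Agent.Lib.Wielandt.Kernel
  Cfsg.Agent.Lib.Wielandt.Block Cfsg.Agent.Lib.Wielandt.CaseOne

variable {p : ℕ} [Fact p.Prime] {α : Type*} [Fintype α] [DecidableEq α]
  {G : Type*} [Group G] [Fintype G] [MulAction G α]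

omit [Fintype α] [DecidableEq α] [Fintype G] in
lemma two_trans_of (h : ∀ y z y' z' : α, y ≠ z → y' ≠ z' → ∃ g : G, g • y = y' ∧ g • z = z') :
    IsMultiplyPretransitive G α 2 := by
  refine ⟨fun t t' => ?_⟩
  have hne : ∀ s : Fin 2 ↪ α, s 0 ≠ s 1 := fun s h' => by
    have := s.injective h'
    exact zero_ne_one this
  obtain ⟨g, h1, h2⟩ := h (t 0) (t 1) (t' 0) (t' 1) (hne t) (hne t')
  refine ⟨g, ?_⟩
  ext i
  fin_cases i
  · exact h1
  · exact h2

variable (C : Coord p α G)

lemma one_ne_zero_zmod : (1 : ZMod p) ≠ 0 := by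
  have : Fact (1 < p) := ⟨(Fact.out : p.Prime).one_lt⟩
  exact one_ne_zero

/-- The sheet is not a block of a primitive group. -/
lemma sheet_not_block [IsPreprimitive G α] (hB : IsBlock G {y | C.v y = 1}) : False := by
  rcases IsPreprimitive.isTrivialBlock_of_isBlock hB with h | h
  · have h0 : C.φ (0, 0) ∈ {y | C.v y = 1} := by simp
    have h1 : C.φ (1, 0) ∈ {y | C.v y = 1} := by simp
    have h2 := C.φ.injective (h h0 h1)
    have h3 := congrArg Prod.fst h2
    exact one_ne_zero_zmod (p := p) h3.symm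
  · have h0 : C.φ (0, 1) ∈ {y | C.v y = 1} := by
      rw [h]
      trivial
    simp only [Set.mem_setOf_eq, C.v_one] at h0
    norm_num at h0

lemma v_eq_of_T_eq_one {y z : α} (h : C.T y z = 1) (g : G) : C.v (g⁻¹ • y) = C.v (g⁻¹ • z) := by
  have hc : (Fintype.card G : ℚ) ≠ 0 := Nat.cast_ne_zero.mpr Fintype.card_ne_zero
  rw [Coord.T_apply] at h
  have h1 : ∑ g : G, C.v (g⁻¹ • y) * C.v (g⁻¹ • z) = Fintype.card G := by
    field_simp at h
    linarith
  have h2 : ∑ g : G, (1 - C.v (g⁻¹ • y) * C.v (g⁻¹ • z)) = 0 := by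
    rw [Finset.sum_sub_distrib, h1]
    simp
  have hvals : ∀ w, C.v w = 1 ∨ C.v w = -1 := by
    intro w
    unfold Coord.v
    split_ifs <;> simp
  have hnn : ∀ g ∈ (Finset.univ : Finset G), 0 ≤ 1 - C.v (g⁻¹ • y) * C.v (g⁻¹ • z) := by
    intro g _
    rcases hvals (g⁻¹ • y) with h3 | h3 <;> rcases hvals (g⁻¹ • z) with h4 | h4 <;> rw [h3, h4] <;> norm_num
  have h3 := (Finset.sum_eq_zero_iff_of_nonneg hnn).mp h2 g (Finset.mem_univ g)
  rcases hvals (g⁻¹ • y) with h4 | h4 <;> rcases hvals (g⁻¹ • z) with h5 | h5 <;> rw [h4, h5] at h3 ⊢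
  · norm_num at h3
  · norm_num at h3

variable [IsPreprimitive G α]

/-- If `T` is `1` on each sheet we get a block. -/
theorem false_of_T_sheet (hT : ∀ y z, C.v y = 1 → C.v z = 1 → C.T y z = 1) : False := by
  apply sheet_not_block C
  rw [isBlock_iff_smul_eq_of_mem]
  intro g a ha hga
  have hforward : ∀ z, C.v z = 1 → C.v (g • z) = 1 := by
    intro z hz
    have h1 := v_eq_of_T_eq_one C (hT a z ha hz) g⁻¹
    rw [inv_inv] at h1
    rw [← h1]
    exact hga
  have hback : ∀ z, C.v z = 1 → C.v (g⁻¹ • z) = 1 := by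
    intro z hz
    have h1 := v_eq_of_T_eq_one C (hT (g • a) z hga hz) g
    rw [inv_smul_smul] at h1
    rw [← h1]
    exact ha
  ext z
  rw [Set.mem_smul_set_iff_inv_smul_mem]
  constructor
  · intro hz
    have := hforward _ hz
    rwa [smul_inv_smul] at this
  · exact hback z

/-- Case `t = 0`. -/
theorem false_of_t_zero (hu : ∀ j : ZMod p, j ≠ 0 → u C 0 j + u C 1 j = 2) : False := by
  apply false_of_T_sheet C
  have hu0 : ∀ j : ZMod p, u C 0 j = 1 := by
    intro j
    by_cases hj : j = 0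
    · rw [hj, u_zero]
    · have h1 := hu j hj
      have h2 := (abs_le.mp (C.T_abs_le (C.φ (0, 0)) (C.φ (j, 0)))).2
      have h3 := (abs_le.mp (C.T_abs_le (C.φ (0, 1)) (C.φ (j, 1)))).2
      have h4 : u C 0 j ≤ 1 := h2
      have h5 : u C 1 j ≤ 1 := h3
      linarith
  have hsheet : ∀ y, C.v y = 1 → ∃ j, y = C.φ (j, 0) := by
    intro y hy
    obtain ⟨⟨j, b⟩, rfl⟩ := C.φ.surjective y
    fin_cases b
    · exact ⟨j, rfl⟩
    · simp only [Fin.mk_one, C.v_one] at hy
      norm_num at hy
  intro y z hy hz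
  obtain ⟨i, rfl⟩ := hsheet y hy
  obtain ⟨j, rfl⟩ := hsheet z hz
  have : C.T (C.φ (i, 0)) (C.φ (j, 0)) = C.T (C.φ (0, 0)) (C.φ (j - i, 0)) :=
    C.kernel_coord (fun y z => C.T y z) (fun y z => C.T_inv C.x y z) i j 0 0
  rw [this]
  exact hu0 (j - i)

/-- Case `t = 2`: the off-diagonal values of `T` are constant and the group is `2`-transitive. -/
theorem two_trans_of_t_two (hτ : C.τ * (2 * (p : ℚ) - 1) = 2 * p) : IsMultiplyPretransitive G α 2 := by
  have hp : (1 : ℚ) ≤ p := by exact_mod_cast (Fact.out : p.Prime).one_lt.le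
  have hn : (2 * (p : ℚ) - 1) ≠ 0 := by
    have : (0 : ℚ) < 2 * p - 1 := by linarith
    exact this.ne'
  set c : ℚ := (2 * (p : ℚ) - 1)⁻¹ with hc
  have hcn : c * (2 * (p : ℚ) - 1) = 1 := inv_mul_cancel₀ hn
  have hcpos : 0 < c := inv_pos.mpr (by linarith)
  have hτc : C.τ - 1 = c := by
    have h1 : C.τ = 2 * p * c := by
      have h2 : C.τ = C.τ * (2 * (p : ℚ) - 1) * c := by
        rw [mul_assoc, mul_comm (2 * (p : ℚ) - 1) c, hcn, mul_one]
      rw [h2, hτ]
    rw [h1]
    linear_combination hcn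
  have hTval : ∀ y z, y ≠ z → C.T y z = -c := by
    intro y z hyz
    have hE : (Finset.univ.erase y).card = 2 * p - 1 := by
      rw [Finset.card_erase_of_mem (Finset.mem_univ y), Finset.card_univ, Coord.card_α C]
    have hs1 : ∑ w ∈ Finset.univ.erase y, C.T y w = -1 := by
      have h1 : C.T y y + ∑ w ∈ Finset.univ.erase y, C.T y w = ∑ w, C.T y w :=
        Finset.add_sum_erase Finset.univ (fun w => C.T y w) (Finset.mem_univ y)
      rw [C.T_row_zero, C.T_diag] at h1
      linarith
    have hs2 : ∑ w ∈ Finset.univ.erase y, C.T y w * C.T y w = c := by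
      have h1 : C.T y y * C.T y y + ∑ w ∈ Finset.univ.erase y, C.T y w * C.T y w = ∑ w, C.T y w * C.T y w :=
        Finset.add_sum_erase Finset.univ (fun w => C.T y w * C.T y w) (Finset.mem_univ y)
      rw [← C.τ_eq y, C.T_diag] at h1
      linarith
    have hsq : ∑ w ∈ Finset.univ.erase y, (C.T y w + c) * (C.T y w + c) = 0 := by
      have h1 : ∀ w, (C.T y w + c) * (C.T y w + c) = C.T y w * C.T y w + 2 * c * C.T y w + c * c := by
        intro w
        ring
      simp_rw [h1]
      rw [Finset.sum_add_distrib, Finset.sum_add_distrib, hs2, ← Finset.mul_sum, hs1]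
      simp only [Finset.sum_const, nsmul_eq_mul, hE]
      have hp2 : 1 ≤ 2 * p := by
        have := (Fact.out : p.Prime).pos
        omega
      rw [Nat.cast_sub hp2]
      push_cast
      linear_combination c * hcn
    have h3 := (Finset.sum_eq_zero_iff_of_nonneg (fun w _ => mul_self_nonneg (C.T y w + c))).mp hsq z
      (Finset.mem_erase.mpr ⟨Ne.symm hyz, Finset.mem_univ z⟩)
    have h4 := mul_self_eq_zero.mp h3
    linarith
  -- every off-diagonal orbital is everything
  have hall : ∀ y₀ z₀ y z : α, y₀ ≠ z₀ → y ≠ z → orb G y₀ z₀ y z = 1 := by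
    intro y₀ z₀ y z hy₀ hyz
    set A := orb G y₀ z₀ with hA
    have hmul := C.mul_T (orb_inv (G := G) y₀ z₀)
    rw [← hA] at hmul
    have hform : ∀ y z, y ≠ z → A y z * (1 + c) = c * (∑ w, A y w - C.a A) := by
      intro y z hyz
      have h1 := congrFun (congrFun hmul y) z
      simp only [Matrix.mul_apply, Matrix.smul_apply, smul_eq_mul] at h1
      have h2 : A y z * C.T z z + ∑ w ∈ Finset.univ.erase z, A y w * C.T w z = ∑ w, A y w * C.T w z :=
        Finset.add_sum_erase Finset.univ (fun w => A y w * C.T w z) (Finset.mem_univ z)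
      have h3 : ∑ w ∈ Finset.univ.erase z, A y w * C.T w z = -c * ∑ w ∈ Finset.univ.erase z, A y w := by
        rw [Finset.mul_sum]
        refine Finset.sum_congr rfl fun w hw => ?_
        rw [hTval w z (Finset.mem_erase.mp hw).1]
        ring
      have h4 : A y z + ∑ w ∈ Finset.univ.erase z, A y w = ∑ w, A y w :=
        Finset.add_sum_erase Finset.univ (fun w => A y w) (Finset.mem_univ z)
      rw [C.T_diag, mul_one, h3] at h2
      rw [← h2, hTval y z hyz] at h1
      have h5 : ∑ w ∈ Finset.univ.erase z, A y w = ∑ w, A y w - A y z := by linarith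
      rw [h5] at h1
      linear_combination h1
    have hrow : ∀ y y', ∑ w, A y w = ∑ w, A y' w := fun y y' => (orb_inv (G := G) y₀ z₀).row_eq y y'
    have h1 := hform y₀ z₀ hy₀
    have h2 := hform y z hyz
    rw [hrow y y₀] at h2
    rw [show A y₀ z₀ = 1 from orb_self y₀ z₀, ← h2] at h1
    have h3 : (1 + c) ≠ 0 := by linarith
    exact (mul_right_cancel₀ h3 h1).symm
  apply two_trans_of
  intro y z y' z' hyz hyz'
  have h1 := hall y z y' z' hyz hyz'
  obtain ⟨g, hg1, hg2⟩ := (orb_eq_one_iff y z y' z').mp h1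
  exact ⟨g, hg1, hg2⟩

lemma v_x_pow (n : ℕ) (y : α) : C.v (C.x ^ n • y) = C.v y := by
  induction n with
  | zero => simp
  | succ n ih => rw [pow_succ', mul_smul, C.v_x, ih]

include C in
/-- No orbital has valency one. -/
theorem no_valency_one [FaithfulSMul G α] {y₀ z₀ : α} (hyz : y₀ ≠ z₀) :
    (∑ z, orb G y₀ z₀ y₀ z) ≠ 1 := by
  intro hsum
  have hunique : ∀ w, orb G y₀ z₀ y₀ w = 1 → w = z₀ := by
    intro w hw
    by_contra hne
    have h1 : orb G y₀ z₀ y₀ z₀ + ∑ v ∈ Finset.univ.erase z₀, orb G y₀ z₀ y₀ v = ∑ v, orb G y₀ z₀ y₀ v :=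
      Finset.add_sum_erase Finset.univ (fun v => orb G y₀ z₀ y₀ v) (Finset.mem_univ z₀)
    have h2 : orb G y₀ z₀ y₀ w ≤ ∑ v ∈ Finset.univ.erase z₀, orb G y₀ z₀ y₀ v :=
      Finset.single_le_sum (f := fun v => orb G y₀ z₀ y₀ v)
        (fun v _ => by
          rcases orb_eq_zero_or_one (G := G) y₀ z₀ y₀ v with h | h <;> simp [h])
        (Finset.mem_erase.mpr ⟨hne, Finset.mem_univ w⟩)
    rw [orb_self, hsum] at h1
    rw [hw] at h2
    linarith
  have hfix : ∀ g : G, g • y₀ = y₀ → g • z₀ = z₀ := fun g hg =>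
    hunique _ ((orb_eq_one_iff y₀ z₀ y₀ _).mpr ⟨g, hg, rfl⟩)
  let S := stabilizer G y₀
  let B : Set α := {w | ∀ g ∈ S, g • w = w}
  have hcardstab : ∀ w : α, Nat.card (stabilizer G w) = Nat.card S := by
    intro w
    obtain ⟨h, rfl⟩ := exists_smul_eq G y₀ w
    rw [stabilizer_smul_eq_stabilizer_map_conj]
    exact Nat.card_congr (Subgroup.equivMapOfInjective _ _ (MulAut.conj h).injective).symm.toEquiv
  have hstab : ∀ w ∈ B, stabilizer G w = S := by
    intro w hw
    exact (Subgroup.eq_of_le_of_card_ge (fun g hg => hw g hg) (by rw [hcardstab w])).symm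
  have hblock : IsBlock G B := by
    rw [isBlock_iff_smul_eq_of_mem]
    intro g a ha hga
    have h1 := hstab a ha
    have h2 := hstab (g • a) hga
    have hc1 : ∀ s ∈ S, g⁻¹ * s * g ∈ S := by
      intro s hs
      have hs' : s • (g • a) = g • a := by
        have h3 : s ∈ stabilizer G (g • a) := by rw [h2]; exact hs
        exact h3
      have h3 : g⁻¹ * s * g ∈ stabilizer G a := by
        show (g⁻¹ * s * g) • a = a
        rw [mul_smul, mul_smul, hs', inv_smul_smul]
      rwa [h1] at h3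
    have hc2 : ∀ s ∈ S, g * s * g⁻¹ ∈ S := by
      intro s hs
      have hs' : s • a = a := by
        have h3 : s ∈ stabilizer G a := by rw [h1]; exact hs
        exact h3
      have h3 : g * s * g⁻¹ ∈ stabilizer G (g • a) := by
        show (g * s * g⁻¹) • (g • a) = g • a
        rw [mul_smul, mul_smul, inv_smul_smul, hs']
      rwa [h2] at h3
    ext w
    rw [Set.mem_smul_set_iff_inv_smul_mem]
    constructor
    · intro hw s hs
      have h3 := hw (g⁻¹ * s * g) (hc1 s hs)
      rw [mul_smul, mul_smul, smul_inv_smul, inv_smul_eq_iff, smul_inv_smul] at h3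
      exact h3
    · intro hw s hs
      have h3 := hw (g * s * g⁻¹) (hc2 s hs)
      rw [mul_smul, mul_smul, smul_eq_iff_eq_inv_smul] at h3
      exact h3
  have hy₀B : y₀ ∈ B := fun g hg => hg
  have hz₀B : z₀ ∈ B := fun g hg => hfix g hg
  have huniv : B = Set.univ := by
    rcases IsPreprimitive.isTrivialBlock_of_isBlock hblock with h | h
    · exact absurd (h hy₀B hz₀B) hyz
    · exact h
  have hS : ∀ g : G, g • y₀ = y₀ → g = 1 := by
    intro g hg
    apply FaithfulSMul.eq_of_smul_eq_smul (α := α)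
    intro w
    have h1 : w ∈ B := by rw [huniv]; trivial
    rw [one_smul]
    exact h1 g hg
  have hreg : ∀ (a : α) (g : G), g • a = a → g = 1 := by
    intro a g hg
    obtain ⟨h, rfl⟩ := exists_smul_eq G y₀ a
    have h1 : (h⁻¹ * g * h) • y₀ = y₀ := by
      rw [mul_smul, mul_smul, hg, inv_smul_smul]
    have h2 := hS _ h1
    have h3 : g = h * (h⁻¹ * g * h) * h⁻¹ := by group
    rw [h3, h2]
    group
  apply sheet_not_block C
  rw [isBlock_iff_smul_eq_of_mem]
  intro g a ha hga
  have hsheet : ∀ y, C.v y = 1 → ∃ j, y = C.φ (j, 0) := by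
    intro y hy
    obtain ⟨⟨j, b⟩, rfl⟩ := C.φ.surjective y
    fin_cases b
    · exact ⟨j, rfl⟩
    · simp only [Fin.mk_one, C.v_one] at hy
      norm_num at hy
  obtain ⟨i, rfl⟩ := hsheet a ha
  obtain ⟨j, hj⟩ := hsheet (g • C.φ (i, 0)) hga
  have h1 : C.x ^ (j - i).val • C.φ (i, 0) = C.φ (j, 0) := by
    rw [C.x_pow_smul]
    simp
  have h2 : (C.x ^ (j - i).val)⁻¹ * g = 1 := by
    apply hreg (C.φ (i, 0))
    rw [mul_smul, hj, ← h1, inv_smul_smul]
  have h3 : g = C.x ^ (j - i).val := by
    rw [← mul_right_inj (C.x ^ (j - i).val)⁻¹, h2, inv_mul_cancel]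
  ext w
  rw [Set.mem_smul_set_iff_inv_smul_mem, h3]
  simp only [Set.mem_setOf_eq]
  rw [← v_x_pow C (j - i).val (((C.x ^ (j - i).val)⁻¹ • w)), smul_inv_smul]

/-- The set of points in the row of an orbital is a suborbit. -/
lemma card_orbit_eq {y₀ z₀ y z : α} (h : orb G y₀ z₀ y z = 1) :
    (Nat.card (orbit (stabilizer G y) z) : ℚ) = ∑ w, orb G y₀ z₀ y w := by
  classical
  obtain ⟨g, rfl, rfl⟩ := (orb_eq_one_iff y₀ z₀ y z).mp h
  have h1 : ∀ w, orb G y₀ z₀ (g • y₀) w = if w ∈ orbit (stabilizer G (g • y₀)) (g • z₀) then 1 else 0 := by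
    intro w
    by_cases hw : w ∈ orbit (stabilizer G (g • y₀)) (g • z₀)
    · rw [if_pos hw, orb_eq_one_iff]
      obtain ⟨⟨k, hk⟩, rfl⟩ := hw
      have hk' : k • g • y₀ = g • y₀ := hk
      exact ⟨k * g, by rw [mul_smul, hk'], by rw [mul_smul]; rfl⟩
    · rw [if_neg hw]
      rcases orb_eq_zero_or_one (G := G) y₀ z₀ (g • y₀) w with h2 | h2
      · exact h2
      · exfalso
        obtain ⟨k, hk1, hk2⟩ := (orb_eq_one_iff y₀ z₀ _ w).mp h2
        apply hw
        refine ⟨⟨k * g⁻¹, ?_⟩, ?_⟩
        · show (k * g⁻¹) • g • y₀ = g • y₀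
          rw [mul_smul, inv_smul_smul, hk1]
        · show (k * g⁻¹) • g • z₀ = w
          rw [mul_smul, inv_smul_smul, hk2]
  simp_rw [h1]
  rw [Finset.sum_boole, Nat.card_eq_fintype_card, Fintype.card_subtype]

lemma exists_orbit_of_orb {y₀ z₀ y z w : α} (h : orb G y₀ z₀ y z = 1) (h' : orb G y₀ z₀ y w = 1) :
    w ∈ orbit (stabilizer G y) z := by
  obtain ⟨g, rfl, rfl⟩ := (orb_eq_one_iff y₀ z₀ y z).mp h
  obtain ⟨k, hk1, hk2⟩ := (orb_eq_one_iff y₀ z₀ _ w).mp h'
  refine ⟨⟨k * g⁻¹, ?_⟩, ?_⟩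
  · show (k * g⁻¹) • g • y₀ = g • y₀
    rw [mul_smul, inv_smul_smul, hk1]
  · show (k * g⁻¹) • g • z₀ = w
    rw [mul_smul, inv_smul_smul, hk2]

lemma orb_of_orbit {y₀ z₀ y z w : α} (h : orb G y₀ z₀ y z = 1) (h' : w ∈ orbit (stabilizer G y) z) :
    orb G y₀ z₀ y w = 1 := by
  obtain ⟨g, hg1, hg2⟩ := (orb_eq_one_iff y₀ z₀ y z).mp h
  obtain ⟨⟨k, hk⟩, rfl⟩ := h'
  rw [orb_eq_one_iff]
  have hk' : k • y = y := hk
  exact ⟨k * g, by rw [mul_smul, hg1, hk'], by rw [mul_smul, hg2]; rfl⟩

include C in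
/-- Wielandt's theorem for a group with a semiregular element of prime order `p` on `2p` points. -/
theorem main [FaithfulSMul G α] (a₀ : α) :
    IsMultiplyPretransitive G α 2 ∨
      (Nat.card (orbitRel.Quotient (stabilizer G a₀) α) = 3 ∧ ∃ a : ℕ, 0 < a ∧ p = 2 * a ^ 2 + 2 * a + 1 ∧
        ∀ b : α, b ≠ a₀ → Nat.card (orbit (stabilizer G a₀) b) = a * (2 * a + 1) ∨
          Nat.card (orbit (stabilizer G a₀) b) = (a + 1) * (2 * a + 1)) := by
  have hp0 : (p : ℚ) ≠ 0 := Nat.cast_ne_zero.mpr (Fact.out : p.Prime).ne_zero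
  obtain ⟨t, ht, hu, hτ⟩ := trichotomy C
  rcases ht with rfl | rfl | rfl
  · exfalso
    apply false_of_t_zero C
    intro j hj
    have := hu j hj
    simpa using this
  · right
    have hτ2 : C.τ = 2 := by
      have h1 : C.τ * (p : ℚ) = 2 * p := by linear_combination (-1 : ℚ) * hτ
      exact mul_right_cancel₀ hp0 h1
    have hOne : One C := ⟨hτ2, fun j hj => by
      have := hu j hj
      rw [hτ2] at this
      linarith⟩
    have hno : ∀ y₀ z₀ : α, y₀ ≠ z₀ → (∑ z, orb G y₀ z₀ y₀ z) ≠ 1 := fun y₀ z₀ h => no_valency_one C h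
    obtain ⟨z₁, hz₁⟩ : ∃ z₁ : α, a₀ ≠ z₁ := by
      by_contra hcon
      push Not at hcon
      have h1 := C.φ.injective ((hcon (C.φ (0, 0))).symm.trans (hcon (C.φ (0, 1))))
      have h2 := congrArg Prod.snd h1
      exact zero_ne_one h2
    obtain ⟨a, y₂, z₂, hy₂z₂, ha0, ha1, hk, hk', hcover, hdisj, hcount⟩ := main_one hOne hno hz₁
    have hA : orb G a₀ z₁ a₀ z₁ = 1 := orb_self _ _
    -- a point in the second orbit
    obtain ⟨z₃, hz₃⟩ : ∃ z, orb G y₂ z₂ a₀ z = 1 := by
      by_contra hcon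
      push Not at hcon
      have h1 : ∑ w, orb G y₂ z₂ a₀ w = 0 := by
        refine Finset.sum_eq_zero fun w _ => ?_
        rcases orb_eq_zero_or_one (G := G) y₂ z₂ a₀ w with h2 | h2
        · exact h2
        · exact absurd h2 (hcon w)
      have h2 := orb_row_pos (G := G) y₂ z₂ a₀
      rw [h1] at h2
      norm_num at h2
    -- the parameter
    obtain ⟨N, hNpos, hN⟩ : ∃ N : ℕ, 0 < N ∧ (a = N ∨ a = -1 - N) := by
      rcases lt_or_gt_of_ne ha0 with h | h
      · refine ⟨(-1 - a).toNat, ?_, Or.inr ?_⟩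
        · have : a ≠ -1 := ha1
          omega
        · have : ((-1 - a).toNat : ℤ) = -1 - a := Int.toNat_of_nonneg (by omega)
          rw [this]
          ring
      · refine ⟨a.toNat, by omega, Or.inl ?_⟩
        exact (Int.toNat_of_nonneg h.le).symm
    constructor
    · -- the rank
      let f : Fin 3 → orbitRel.Quotient (stabilizer G a₀) α :=
        ![Quotient.mk'' a₀, Quotient.mk'' z₁, Quotient.mk'' z₃]
      have hrel : ∀ u w : α, (Quotient.mk'' u : orbitRel.Quotient (stabilizer G a₀) α) = Quotient.mk'' w ↔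
          u ∈ orbit (stabilizer G a₀) w := by
        intro u w
        rw [Quotient.eq'']
        exact orbitRel_apply
      have hself : ∀ w, w ∈ orbit (stabilizer G a₀) a₀ → w = a₀ := by
        rintro w ⟨⟨k, hk⟩, rfl⟩
        exact hk
      have hz₃a : z₃ ≠ a₀ := by
        rintro rfl
        rw [orb_diag _ _ _ hy₂z₂] at hz₃
        exact zero_ne_one hz₃
      have hinj : Function.Injective f := by
        intro i j hij
        fin_cases i <;> fin_cases j <;> first | rfl | exfalso
        · have h1 : (Quotient.mk'' a₀ : orbitRel.Quotient (stabilizer G a₀) α) = Quotient.mk'' z₁ := hij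
          have h2 := hself _ ((hrel _ _).mp h1.symm)
          exact hz₁ h2.symm
        · have h1 : (Quotient.mk'' a₀ : orbitRel.Quotient (stabilizer G a₀) α) = Quotient.mk'' z₃ := hij
          have h2 := hself _ ((hrel _ _).mp h1.symm)
          exact hz₃a h2
        · have h1 : (Quotient.mk'' z₁ : orbitRel.Quotient (stabilizer G a₀) α) = Quotient.mk'' a₀ := hij
          have h2 := hself _ ((hrel _ _).mp h1)
          exact hz₁ h2.symm
        · have h1 : (Quotient.mk'' z₁ : orbitRel.Quotient (stabilizer G a₀) α) = Quotient.mk'' z₃ := hij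
          have h2 := orb_of_orbit hz₃ ((hrel _ _).mp h1)
          exact hdisj z₁ ⟨hA, h2⟩
        · have h1 : (Quotient.mk'' z₃ : orbitRel.Quotient (stabilizer G a₀) α) = Quotient.mk'' a₀ := hij
          have h2 := hself _ ((hrel _ _).mp h1)
          exact hz₃a h2
        · have h1 : (Quotient.mk'' z₃ : orbitRel.Quotient (stabilizer G a₀) α) = Quotient.mk'' z₁ := hij
          have h2 := orb_of_orbit hA ((hrel _ _).mp h1)
          exact hdisj z₃ ⟨h2, hz₃⟩
      have hsurj : Function.Surjective f := by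
        intro q
        induction q using Quotient.inductionOn' with
        | h b =>
          by_cases hb : b = a₀
          · exact ⟨0, by rw [hb]; rfl⟩
          · rcases hcover b hb with h1 | h1
            · refine ⟨1, ?_⟩
              show Quotient.mk'' z₁ = Quotient.mk'' b
              rw [hrel]
              exact exists_orbit_of_orb h1 hA
            · refine ⟨2, ?_⟩
              show Quotient.mk'' z₃ = Quotient.mk'' b
              rw [hrel]
              exact exists_orbit_of_orb h1 hz₃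
      have h3 := Nat.card_eq_of_bijective f ⟨hinj, hsurj⟩
      rw [← h3]
      simp
    · refine ⟨N, hNpos, ?_, ?_⟩
      · have h1 : (2 * a + 1) ^ 2 = ((2 * N + 1 : ℤ)) ^ 2 := by
          rcases hN with h | h <;> rw [h] <;> ring
        have h2 : ((2 * a + 1) ^ 2 : ℚ) = ((2 * N + 1 : ℚ)) ^ 2 := by exact_mod_cast h1
        rw [h2] at hcount
        have h3 : (p : ℚ) = ((2 * N ^ 2 + 2 * N + 1 : ℕ) : ℚ) := by
          push_cast
          linear_combination hcount / 2
        exact_mod_cast h3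
      · intro b hb
        have hcases : ((Nat.card (orbit (stabilizer G a₀) b) : ℕ) : ℚ) = (a : ℚ) * (2 * a + 1) ∨
            ((Nat.card (orbit (stabilizer G a₀) b) : ℕ) : ℚ) = ((a : ℚ) + 1) * (2 * a + 1) := by
          rcases hcover b hb with h1 | h1
          · left
            rw [card_orbit_eq h1, hk]
          · right
            rw [card_orbit_eq h1, hk']
        rcases hN with h | h
        · rw [h] at hcases
          push_cast at hcases
          rcases hcases with h1 | h1
          · left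
            exact_mod_cast h1
          · right
            exact_mod_cast h1
        · rw [h] at hcases
          push_cast at hcases
          rcases hcases with h1 | h1
          · right
            have h2 : ((Nat.card (orbit (stabilizer G a₀) b) : ℕ) : ℚ) = (((N + 1) * (2 * N + 1) : ℕ) : ℚ) := by
              push_cast
              rw [h1]
              ring
            exact_mod_cast h2
          · left
            have h2 : ((Nat.card (orbit (stabilizer G a₀) b) : ℕ) : ℚ) = ((N * (2 * N + 1) : ℕ) : ℚ) := by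
              push_cast
              rw [h1]
              ring
            exact_mod_cast h2
  · left
    apply two_trans_of_t_two C
    linear_combination (-1 : ℚ) * hτ

end Cfsg.Agent.Lib.Wielandt.Final
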