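import Mathlib

/-!
# Discrete Fourier tools on `ZMod p` with rational coefficients

* `constant_of_sum_eq_zero`: a rational linear relation between `p`-th roots of unity
  has constant coefficients.
* `parseval`: `∑ l, |∑ j, f j * e (l * j)|² = p * ∑ j, f j ²` for real `f`.
-/

set_option autoImplicit false

namespace Cfsg.Agent.Lib.Wielandt.Fourier

open Polynomial

variable {p : ℕ} [Fact p.Prime]

/-- The standard additive character. -/
noncomputable abbrev e (j : ZMod p) : ℂ := ZMod.stdAddChar j

lemma e_add (i j : ZMod p) : e (i + j) = e i * e j := by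
  simp [e, AddChar.map_add_eq_mul]

lemma e_zero : e (0 : ZMod p) = 1 := by
  simp [e]

lemma e_neg (j : ZMod p) : e (-j) = (starRingEnd ℂ) (e j) := by
  simp [e, AddChar.map_neg_eq_conj]

lemma e_mul_conj (j : ZMod p) : e j * (starRingEnd ℂ) (e j) = 1 := by
  rw [← e_neg, ← e_add]
  simp [e_zero]

lemma sum_e_mul (b : ZMod p) : ∑ l : ZMod p, e (l * b) = if b = 0 then (p : ℂ) else 0 := by
  have := AddChar.sum_mulShift (R := ZMod p) (R' := ℂ) (ψ := ZMod.stdAddChar) b (ZMod.isPrimitive_stdAddChar p)
  simpa [ZMod.card, e] using this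

/-- Parseval for real coefficient functions, as a complex identity. -/
theorem parseval (f g : ZMod p → ℂ) :
    ∑ l : ZMod p, (∑ j, f j * e (l * j)) * (starRingEnd ℂ) (∑ j, g j * e (l * j))
      = p * ∑ j, f j * (starRingEnd ℂ) (g j) := by
  classical
  have h1 : ∀ l : ZMod p, (∑ j, f j * e (l * j)) * (starRingEnd ℂ) (∑ j, g j * e (l * j))
      = ∑ i, ∑ j, f i * (starRingEnd ℂ) (g j) * e (l * (i - j)) := by
    intro l
    rw [map_sum, Finset.sum_mul_sum]
    refine Finset.sum_congr rfl fun i _ => Finset.sum_congr rfl fun j _ => ?_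
    have h0 : e (l * (i - j)) = e (l * i) * (starRingEnd ℂ) (e (l * j)) := by
      rw [mul_sub, sub_eq_add_neg, e_add, e_neg]
    rw [h0, map_mul]
    ring
  simp_rw [h1]
  rw [Finset.sum_comm]
  have h2 : ∀ i : ZMod p, ∑ l : ZMod p, ∑ j, f i * (starRingEnd ℂ) (g j) * e (l * (i - j))
      = p * (f i * (starRingEnd ℂ) (g i)) := by
    intro i
    rw [Finset.sum_comm]
    have h3 : ∀ j : ZMod p, ∑ l : ZMod p, f i * (starRingEnd ℂ) (g j) * e (l * (i - j))
        = f i * (starRingEnd ℂ) (g j) * (if i - j = 0 then (p : ℂ) else 0) := by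
      intro j
      rw [← Finset.mul_sum, sum_e_mul]
    simp_rw [h3, sub_eq_zero]
    simp [mul_comm]
  simp_rw [h2]
  rw [Finset.mul_sum]

/-- A rational relation among the `p`-th roots of unity has constant coefficients. -/
theorem constant_of_sum_eq_zero (q : ZMod p → ℚ) (h : ∑ j, (q j : ℂ) * e j = 0) (i j : ZMod p) :
    q i = q j := by
  classical
  have hp : p.Prime := Fact.out
  have hpos : 0 < p := hp.pos
  have : NeZero p := ⟨hpos.ne'⟩
  -- the primitive root
  set ζ : ℂ := e (1 : ZMod p) with hζ
  have hζpow : ∀ n : ℕ, e ((n : ZMod p)) = ζ ^ n := by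
    intro n
    induction n with
    | zero => simp [e_zero]
    | succ n ih =>
      rw [Nat.cast_succ, e_add, ih, pow_succ]
  have hprim : IsPrimitiveRoot ζ p := by
    rw [IsPrimitiveRoot.iff_def]
    constructor
    · rw [← hζpow]
      simp [e_zero]
    · intro l hl
      rw [← hζpow] at hl
      have h1 : ∀ b : ZMod p, e ((l : ZMod p) * b) = 1 := by
        intro b
        have := hζpow (l * b.val)
        simp only [Nat.cast_mul, ZMod.natCast_val, ZMod.cast_id', id_eq] at this
        rw [this, pow_mul, ← hζpow, hl, one_pow]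
      by_contra hne
      have hne' : (l : ZMod p) ≠ 0 := by
        rwa [Ne, ZMod.natCast_eq_zero_iff]
      have h2 := sum_e_mul (p := p) ((l : ZMod p))
      simp only [hne', if_false] at h2
      have h3 : ∑ b : ZMod p, e (b * (l : ZMod p)) = ∑ b : ZMod p, (1 : ℂ) :=
        Finset.sum_congr rfl fun b _ => by rw [mul_comm, h1]
      rw [h2] at h3
      simp only [Finset.sum_const, Finset.card_univ, ZMod.card, nsmul_eq_mul, mul_one] at h3
      exact (Nat.cast_ne_zero.mpr hpos.ne') h3.symm
  -- the polynomial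
  let Q : ℚ[X] := ∑ j : ZMod p, C (q j) * X ^ j.val
  have hQ : aeval ζ Q = 0 := by
    simp only [Q, map_sum, map_mul, aeval_C, aeval_X_pow]
    rw [← h]
    refine Finset.sum_congr rfl fun j _ => ?_
    rw [← hζpow]
    simp
  have hmin : cyclotomic p ℚ = minpoly ℚ ζ := cyclotomic_eq_minpoly_rat hprim hpos
  have hdvd : cyclotomic p ℚ ∣ Q := by
    rw [hmin]
    exact minpoly.dvd ℚ ζ hQ
  have hcoeff : ∀ j : ZMod p, Q.coeff j.val = q j := by
    intro j
    simp only [Q, finset_sum_coeff, coeff_C_mul, coeff_X_pow]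
    rw [Finset.sum_eq_single j]
    · simp
    · intro b _ hb
      have : j.val ≠ b.val := fun h => hb (ZMod.val_injective p h).symm
      simp [this]
    · simp
  have hdeg : Q.natDegree < p := by
    rw [Nat.lt_iff_le_pred hpos]
    refine natDegree_sum_le_of_forall_le _ _ fun j _ => ?_
    refine (natDegree_C_mul_le _ _).trans ?_
    rw [natDegree_X_pow]
    exact Nat.le_pred_of_lt (ZMod.val_lt j)
  obtain ⟨R, hR⟩ := hdvd
  have hcycdeg : (cyclotomic p ℚ).natDegree = p - 1 := by
    rw [natDegree_cyclotomic, Nat.totient_prime hp]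
  have hcm : (cyclotomic p ℚ).Monic := cyclotomic.monic p ℚ
  -- `R` is constant
  have hRconst : R.natDegree = 0 ∨ R = 0 := by
    by_cases hR0 : R = 0
    · exact Or.inr hR0
    · left
      have h1 : Q.natDegree = (cyclotomic p ℚ).natDegree + R.natDegree := by
        rw [hR, hcm.natDegree_mul' hR0]
      omega
  have hRC : R = C (R.coeff 0) := by
    rcases hRconst with h1 | h1
    · exact eq_C_of_natDegree_eq_zero h1
    · simp [h1]
  have hall : ∀ j : ZMod p, q j = R.coeff 0 := by
    intro j
    rw [← hcoeff, hR, hRC, cyclotomic_prime, coeff_mul_C, finset_sum_coeff]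
    simp only [coeff_X_pow, coeff_C]
    rw [Finset.sum_eq_single j.val]
    · simp
    · intro b _ hb
      simp [Ne.symm hb]
    · intro h1
      exact absurd (Finset.mem_range.mpr (ZMod.val_lt j)) h1
  rw [hall i, hall j]

end Cfsg.Agent.Lib.Wielandt.Fourier
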