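import Cfsg.Agent.Lib.Wielandt.Fourier

/-!
# Invariant kernels of a group with a semiregular element of order `p` on `2p` points

`Coord` fixes coordinates `ZMod p × Fin 2 ≃ α` in which an element `x` of the group acts by
translation.  `T` is the averaged kernel `y, z ↦ avg_g v(g⁻¹ y) v(g⁻¹ z)`, with `v` the sign of the
two `x`-orbits.
-/

set_option autoImplicit false

namespace Cfsg.Agent.Lib.Wielandt.Kernel

open Matrix MulAction
open Cfsg.Agent.Lib.Wielandt.Fourier

variable {p : ℕ} [Fact p.Prime] {α : Type*} [Fintype α] [DecidableEq α]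
  {G : Type*} [Group G] [Fintype G] [MulAction G α]

variable (p α G) in
/-- Coordinates in which `x` acts by translation. -/
structure Coord where
  /-- the coordinates -/
  φ : ZMod p × Fin 2 ≃ α
  /-- the element -/
  x : G
  hx : ∀ (j : ZMod p) (b : Fin 2), x • φ (j, b) = φ (j + 1, b)

namespace Coord

variable (C : Coord p α G)

lemma x_pow_smul (n : ℕ) (j : ZMod p) (b : Fin 2) : C.x ^ n • C.φ (j, b) = C.φ (j + n, b) := by
  induction n with
  | zero => simp
  | succ n ih =>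
    rw [pow_succ', mul_smul, ih, C.hx]
    congr 2
    push_cast
    ring

/-- Functions invariant under `x` depend only on the sheet. -/
lemma fun_coord {β : Type*} (f : α → β) (hf : ∀ y, f (C.x • y) = f y) (j : ZMod p) (b : Fin 2) :
    f (C.φ (j, b)) = f (C.φ (0, b)) := by
  have h : ∀ n : ℕ, f (C.φ ((n : ZMod p), b)) = f (C.φ (0, b)) := by
    intro n
    induction n with
    | zero => simp
    | succ n ih =>
      rw [← ih, ← hf (C.φ ((n : ZMod p), b)), C.hx]
      push_cast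
      rfl
  have := h j.val
  simpa using this

/-- Kernels invariant under `x` depend only on differences. -/
lemma kernel_coord {β : Type*} (A : α → α → β) (hA : ∀ y z, A (C.x • y) (C.x • z) = A y z)
    (i j : ZMod p) (b c : Fin 2) :
    A (C.φ (i, b)) (C.φ (j, c)) = A (C.φ (0, b)) (C.φ (j - i, c)) := by
  have hpow : ∀ (n : ℕ) (y z : α), A (C.x ^ n • y) (C.x ^ n • z) = A y z := by
    intro n
    induction n with
    | zero => simp
    | succ n ih =>
      intro y z
      rw [pow_succ', mul_smul, mul_smul, hA, ih]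
  have h := hpow i.val (C.φ (0, b)) (C.φ (j - i, c))
  rw [x_pow_smul, x_pow_smul] at h
  simpa using h

/-- Sum over `α` in coordinates. -/
lemma sum_coord {β : Type*} [AddCommMonoid β] (f : α → β) :
    ∑ y, f y = ∑ j : ZMod p, (f (C.φ (j, 0)) + f (C.φ (j, 1))) := by
  rw [← Equiv.sum_comp C.φ f, Fintype.sum_prod_type]
  simp [Fin.sum_univ_two]

/-- The sign function on the two sheets. -/
def v (y : α) : ℚ := if (C.φ.symm y).2 = 0 then 1 else -1

@[simp] lemma v_zero (j : ZMod p) : C.v (C.φ (j, 0)) = 1 := by simp [v]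

@[simp] lemma v_one (j : ZMod p) : C.v (C.φ (j, 1)) = -1 := by simp [v]

lemma v_x (y : α) : C.v (C.x • y) = C.v y := by
  obtain ⟨⟨j, b⟩, rfl⟩ := C.φ.surjective y
  rw [C.hx]
  fin_cases b <;> simp

lemma v_mul_self (y : α) : C.v y * C.v y = 1 := by
  unfold v
  split_ifs <;> norm_num

include C in
lemma card_α : Fintype.card α = 2 * p := by
  rw [← Fintype.card_congr C.φ]
  simp [ZMod.card, mul_comm]

lemma sum_v : ∑ y, C.v y = 0 := by
  rw [C.sum_coord]
  simp

lemma sum_v_smul (g : G) : ∑ y, C.v (g • y) = 0 := by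
  rw [← C.sum_v]
  exact Equiv.sum_comp (MulAction.toPerm g) C.v

end Coord

/-- Invariant kernels. -/
def IsInv (G : Type*) [Group G] [MulAction G α] (A : Matrix α α ℚ) : Prop :=
  ∀ (g : G) (y z : α), A (g • y) (g • z) = A y z

lemma IsInv.transpose {A : Matrix α α ℚ} (hA : IsInv G A) : IsInv G Aᵀ :=
  fun g y z => hA g z y

lemma IsInv.mul {A B : Matrix α α ℚ} (hA : IsInv G A) (hB : IsInv G B) : IsInv G (A * B) := by
  intro g y z
  simp only [Matrix.mul_apply]
  rw [← Equiv.sum_comp (MulAction.toPerm g)]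
  refine Finset.sum_congr rfl fun w _ => ?_
  simp [hA g, hB g]

section transitive

variable [IsPretransitive G α]

lemma IsInv.row_eq {A : Matrix α α ℚ} (hA : IsInv G A) (y y' : α) :
    ∑ z, A y z = ∑ z, A y' z := by
  obtain ⟨g, rfl⟩ := exists_smul_eq G y y'
  rw [← Equiv.sum_comp (MulAction.toPerm g) (fun z => A (g • y) z)]
  exact Finset.sum_congr rfl fun z _ => (hA g y z).symm

/-- The valency of an invariant kernel. -/
noncomputable def val (A : Matrix α α ℚ) (y : α) : ℚ := ∑ z, A y z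

lemma IsInv.col_eq {A : Matrix α α ℚ} (hA : IsInv G A) (y y' : α) :
    ∑ z, A z y = ∑ z, A z y' :=
  hA.transpose.row_eq y y'

lemma IsInv.col_eq_row [Nonempty α] {A : Matrix α α ℚ} (hA : IsInv G A) (y y' : α) :
    ∑ z, A z y = ∑ z, A y' z := by
  have h1 : ∑ w, ∑ z, A w z = ∑ w, ∑ z, A z w := Finset.sum_comm
  have h2 : ∑ w, ∑ z, A w z = Fintype.card α • ∑ z, A y' z := by
    rw [Finset.sum_congr rfl (fun w _ => hA.row_eq w y')]
    simp
  have h3 : ∑ w, ∑ z, A z w = Fintype.card α • ∑ z, A z y := by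
    rw [Finset.sum_congr rfl (fun w _ => hA.col_eq w y)]
    simp
  rw [h2, h3] at h1
  have hc : (Fintype.card α : ℚ) ≠ 0 := Nat.cast_ne_zero.mpr Fintype.card_ne_zero
  simp only [nsmul_eq_mul] at h1
  exact (mul_left_cancel₀ hc h1).symm

end transitive

namespace Coord

variable (C : Coord p α G)

/-- The eigenvalue of an invariant kernel on the sign function. -/
noncomputable def a (A : Matrix α α ℚ) : ℚ := ∑ z, A (C.φ (0, 0)) z * C.v z

variable {C}

lemma IsInv.x {A : Matrix α α ℚ} (hA : IsInv G A) (y z : α) : A (C.x • y) (C.x • z) = A y z :=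
  hA C.x y z

variable [IsPretransitive G α]

/-- The sign function is an eigenvector of every invariant kernel. -/
theorem mulVec_v {A : Matrix α α ℚ} (hA : IsInv G A) (y : α) :
    ∑ z, A y z * C.v z = C.a A * C.v y := by
  -- the function is `x`-invariant
  set f : α → ℚ := fun y => ∑ z, A y z * C.v z with hf
  have hfx : ∀ y, f (C.x • y) = f y := by
    intro y
    simp only [hf]
    rw [← Equiv.sum_comp (MulAction.toPerm C.x)]
    refine Finset.sum_congr rfl fun z _ => ?_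
    simp only [toPerm_apply]
    rw [IsInv.x hA, C.v_x]
  have hsum : ∑ y, f y = 0 := by
    simp only [hf]
    rw [Finset.sum_comm]
    have h1 : ∀ z, ∑ y, A y z * C.v z = (∑ y, A y (C.φ (0, 0))) * C.v z := by
      intro z
      rw [← Finset.sum_mul, hA.col_eq z (C.φ (0, 0))]
    simp_rw [h1]
    rw [← Finset.mul_sum, C.sum_v, mul_zero]
  rw [C.sum_coord] at hsum
  have h2 : ∀ j : ZMod p, f (C.φ (j, 0)) + f (C.φ (j, 1)) = f (C.φ (0, 0)) + f (C.φ (0, 1)) := by
    intro j
    rw [C.fun_coord f hfx j 0, C.fun_coord f hfx j 1]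
  rw [Finset.sum_congr rfl (fun j _ => h2 j)] at hsum
  simp only [Finset.sum_const, Finset.card_univ, ZMod.card, nsmul_eq_mul] at hsum
  have hp : (p : ℚ) ≠ 0 := Nat.cast_ne_zero.mpr (Fact.out : p.Prime).ne_zero
  have h3 : f (C.φ (0, 0)) + f (C.φ (0, 1)) = 0 := (mul_eq_zero.mp hsum).resolve_left hp
  obtain ⟨⟨j, b⟩, rfl⟩ := C.φ.surjective y
  show f (C.φ (j, b)) = C.a A * C.v (C.φ (j, b))
  rw [C.fun_coord f hfx j b]
  have hadef : C.a A = f (C.φ (0, 0)) := rfl
  fin_cases b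
  · simp [hadef]
  · simp only [Fin.mk_one, C.v_one, hadef]
    linarith

/-- Transposition does not change the eigenvalue. -/
theorem a_transpose {A : Matrix α α ℚ} (hA : IsInv G A) : C.a Aᵀ = C.a A := by
  have h1 : ∑ y, ∑ z, C.v y * A y z * C.v z = C.a A * (2 * p) := by
    have : ∀ y, ∑ z, C.v y * A y z * C.v z = C.a A := by
      intro y
      simp_rw [mul_assoc]
      rw [← Finset.mul_sum, mulVec_v hA y]
      calc C.v y * (C.a A * C.v y) = C.a A * (C.v y * C.v y) := by ring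
        _ = C.a A := by rw [C.v_mul_self, mul_one]
    simp_rw [this]
    simp [card_α C]
    ring
  have h2 : ∑ y, ∑ z, C.v y * Aᵀ y z * C.v z = C.a Aᵀ * (2 * p) := by
    have : ∀ y, ∑ z, C.v y * Aᵀ y z * C.v z = C.a Aᵀ := by
      intro y
      simp_rw [mul_assoc]
      rw [← Finset.mul_sum, mulVec_v hA.transpose y]
      calc C.v y * (C.a Aᵀ * C.v y) = C.a Aᵀ * (C.v y * C.v y) := by ring
        _ = C.a Aᵀ := by rw [C.v_mul_self, mul_one]
    simp_rw [this]
    simp [card_α C]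
    ring
  have h3 : ∑ y, ∑ z, C.v y * Aᵀ y z * C.v z = ∑ y, ∑ z, C.v y * A y z * C.v z := by
    simp only [Matrix.transpose_apply]
    rw [Finset.sum_comm]
    refine Finset.sum_congr rfl fun y _ => Finset.sum_congr rfl fun z _ => ?_
    ring
  rw [h1, h2] at h3
  have hp : ((2 : ℚ) * p) ≠ 0 := mul_ne_zero two_ne_zero (Nat.cast_ne_zero.mpr (Fact.out : p.Prime).ne_zero)
  exact mul_right_cancel₀ hp h3

end Coord

namespace Coord

variable (C : Coord p α G)

/-- The averaged kernel. -/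
noncomputable def T : Matrix α α ℚ :=
  fun y z => (Fintype.card G : ℚ)⁻¹ * ∑ g : G, C.v (g⁻¹ • y) * C.v (g⁻¹ • z)

lemma T_apply (y z : α) :
    C.T y z = (Fintype.card G : ℚ)⁻¹ * ∑ g : G, C.v (g⁻¹ • y) * C.v (g⁻¹ • z) := rfl

lemma T_inv : IsInv G C.T := by
  intro h y z
  rw [T_apply, T_apply]
  congr 1
  rw [← Equiv.sum_comp (Equiv.mulLeft h)]
  refine Finset.sum_congr rfl fun g _ => ?_
  simp [mul_smul]

lemma T_transpose : C.Tᵀ = C.T := by
  ext y z
  rw [Matrix.transpose_apply, T_apply, T_apply]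
  congr 1
  exact Finset.sum_congr rfl fun g _ => mul_comm _ _

lemma card_G_ne : (Fintype.card G : ℚ) ≠ 0 := Nat.cast_ne_zero.mpr Fintype.card_ne_zero

lemma T_diag (y : α) : C.T y y = 1 := by
  rw [T_apply]
  simp_rw [C.v_mul_self]
  simp [card_G_ne (G := G)]

lemma v_abs (y : α) : |C.v y| = 1 := by
  unfold v
  split_ifs <;> norm_num

lemma T_abs_le (y z : α) : |C.T y z| ≤ 1 := by
  rw [T_apply, abs_mul, abs_of_pos (inv_pos.mpr (by
    exact_mod_cast Fintype.card_pos : (0 : ℚ) < Fintype.card G))]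
  have h1 : |∑ g : G, C.v (g⁻¹ • y) * C.v (g⁻¹ • z)| ≤ Fintype.card G := by
    refine (Finset.abs_sum_le_sum_abs _ _).trans ?_
    simp only [abs_mul, v_abs, mul_one, Finset.sum_const, Finset.card_univ, nsmul_eq_mul, le_refl]
  have hpos : (0 : ℚ) < Fintype.card G := by exact_mod_cast Fintype.card_pos
  calc (Fintype.card G : ℚ)⁻¹ * |∑ g : G, C.v (g⁻¹ • y) * C.v (g⁻¹ • z)|
      ≤ (Fintype.card G : ℚ)⁻¹ * Fintype.card G := by gcongr
    _ = 1 := inv_mul_cancel₀ hpos.ne'

lemma T_row_zero (y : α) : ∑ z, C.T y z = 0 := by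
  simp only [T_apply]
  rw [← Finset.mul_sum, Finset.sum_comm]
  have : ∀ g : G, ∑ z, C.v (g⁻¹ • y) * C.v (g⁻¹ • z) = 0 := by
    intro g
    rw [← Finset.mul_sum, C.sum_v_smul, mul_zero]
  simp [this]

variable [IsPretransitive G α]

theorem mul_T {A : Matrix α α ℚ} (hA : IsInv G A) : A * C.T = C.a A • C.T := by
  ext y z
  simp only [Matrix.mul_apply, Matrix.smul_apply, smul_eq_mul, T_apply]
  have h1 : ∀ w, A y w * ((Fintype.card G : ℚ)⁻¹ * ∑ g : G, C.v (g⁻¹ • w) * C.v (g⁻¹ • z))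
      = (Fintype.card G : ℚ)⁻¹ * ∑ g : G, A y w * C.v (g⁻¹ • w) * C.v (g⁻¹ • z) := by
    intro w
    rw [mul_left_comm, Finset.mul_sum]
    congr 1
    exact Finset.sum_congr rfl fun g _ => by ring
  simp_rw [h1]
  have h2 : ∀ g : G, ∑ w, A y w * C.v (g⁻¹ • w) = C.a A * C.v (g⁻¹ • y) := by
    intro g
    rw [← mulVec_v hA (g⁻¹ • y), ← Equiv.sum_comp (MulAction.toPerm g)]
    refine Finset.sum_congr rfl fun w _ => ?_
    simp only [toPerm_apply, inv_smul_smul]
    rw [← hA g (g⁻¹ • y) w, smul_inv_smul]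
  calc ∑ w, (Fintype.card G : ℚ)⁻¹ * ∑ g : G, A y w * C.v (g⁻¹ • w) * C.v (g⁻¹ • z)
      = (Fintype.card G : ℚ)⁻¹ * ∑ w, ∑ g : G, A y w * C.v (g⁻¹ • w) * C.v (g⁻¹ • z) := by
        rw [Finset.mul_sum]
    _ = (Fintype.card G : ℚ)⁻¹ * ∑ g : G, ∑ w, A y w * C.v (g⁻¹ • w) * C.v (g⁻¹ • z) := by
        rw [Finset.sum_comm]
    _ = (Fintype.card G : ℚ)⁻¹ * ∑ g : G, C.a A * (C.v (g⁻¹ • y) * C.v (g⁻¹ • z)) := by
        congr 1
        refine Finset.sum_congr rfl fun g _ => ?_
        rw [← Finset.sum_mul, h2, mul_assoc]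
    _ = C.a A * ((Fintype.card G : ℚ)⁻¹ * ∑ g : G, C.v (g⁻¹ • y) * C.v (g⁻¹ • z)) := by
        rw [← Finset.mul_sum, mul_left_comm]

theorem T_mul {A : Matrix α α ℚ} (hA : IsInv G A) : C.T * A = C.a A • C.T := by
  have h1 := C.mul_T hA.transpose
  have h2 : C.T * A = (Aᵀ * C.T)ᵀ := by
    rw [Matrix.transpose_mul, Matrix.transpose_transpose, T_transpose]
  rw [h2, h1, Matrix.transpose_smul, T_transpose, a_transpose hA]

/-- The eigenvalue of `T` itself. -/
noncomputable def τ : ℚ := C.a C.T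

theorem T_mul_T : C.T * C.T = C.τ • C.T := C.mul_T C.T_inv

theorem τ_eq (y : α) : C.τ = ∑ z, C.T y z * C.T y z := by
  have h1 := congrFun (congrFun C.T_mul_T y) y
  simp only [Matrix.mul_apply, Matrix.smul_apply, smul_eq_mul, T_diag, mul_one] at h1
  rw [← h1]
  refine Finset.sum_congr rfl fun z _ => ?_
  have : C.T z y = C.T y z := congrFun (congrFun C.T_transpose y) z
  rw [this]

theorem τ_ge_one (y : α) : 1 ≤ C.τ := by
  rw [C.τ_eq y]
  have h1 : C.T y y * C.T y y ≤ ∑ z, C.T y z * C.T y z :=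
    Finset.single_le_sum (f := fun z => C.T y z * C.T y z)
      (fun z _ => mul_self_nonneg _) (Finset.mem_univ y)
  rwa [T_diag, mul_one] at h1

end Coord

/-- The matrix of the orbital through `(y₀, z₀)`. -/
noncomputable def orb (G : Type*) [Group G] [MulAction G α] (y₀ z₀ : α) : Matrix α α ℚ :=
  fun y z => by
    classical
    exact if ∃ g : G, g • y₀ = y ∧ g • z₀ = z then 1 else 0

lemma orb_apply (y₀ z₀ y z : α) :
    orb G y₀ z₀ y z = if ∃ g : G, g • y₀ = y ∧ g • z₀ = z then 1 else 0 := by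
  unfold orb
  congr

lemma orb_inv (y₀ z₀ : α) : IsInv G (orb G y₀ z₀) := by
  intro h y z
  rw [orb_apply, orb_apply]
  have : (∃ g : G, g • y₀ = h • y ∧ g • z₀ = h • z) ↔ ∃ g : G, g • y₀ = y ∧ g • z₀ = z := by
    constructor
    · rintro ⟨g, h1, h2⟩
      exact ⟨h⁻¹ * g, by rw [mul_smul, h1, inv_smul_smul], by rw [mul_smul, h2, inv_smul_smul]⟩
    · rintro ⟨g, h1, h2⟩
      exact ⟨h * g, by rw [mul_smul, h1], by rw [mul_smul, h2]⟩
  simp only [this]

lemma orb_self (y₀ z₀ : α) : orb G y₀ z₀ y₀ z₀ = 1 := by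
  rw [orb_apply, if_pos]
  exact ⟨1, by simp, by simp⟩

lemma orb_eq_zero_or_one (y₀ z₀ y z : α) : orb G y₀ z₀ y z = 0 ∨ orb G y₀ z₀ y z = 1 := by
  rw [orb_apply]
  split_ifs <;> simp

lemma orb_eq_one_iff (y₀ z₀ y z : α) :
    orb G y₀ z₀ y z = 1 ↔ ∃ g : G, g • y₀ = y ∧ g • z₀ = z := by
  rw [orb_apply]
  split_ifs with h <;> simp [h]

lemma orb_ne_zero_iff (y₀ z₀ y z : α) :
    orb G y₀ z₀ y z ≠ 0 ↔ ∃ g : G, g • y₀ = y ∧ g • z₀ = z := by
  rw [orb_apply]
  split_ifs with h <;> simp [h]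

lemma orb_diag (y₀ z₀ y : α) (h : y₀ ≠ z₀) : orb G y₀ z₀ y y = 0 := by
  rw [orb_apply, if_neg]
  rintro ⟨g, h1, h2⟩
  exact h (MulAction.injective g (h1.trans h2.symm))

namespace Coord

variable (C : Coord p α G) [IsPretransitive G α]

/-- `T` is constant on the orbital; its value is the ratio of the eigenvalue and the valency. -/
theorem T_mul_val (y₀ z₀ : α) :
    C.T y₀ z₀ * ∑ w, orb G y₀ z₀ y₀ w = C.a (orb G y₀ z₀) := by
  have h1 := C.T_mul (orb_inv (G := G) y₀ z₀).transpose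
  rw [a_transpose (orb_inv y₀ z₀)] at h1
  have h2 := congrFun (congrFun h1 y₀) y₀
  simp only [Matrix.mul_apply, Matrix.smul_apply, smul_eq_mul, T_diag, mul_one,
    Matrix.transpose_apply] at h2
  rw [← h2, Finset.mul_sum]
  refine Finset.sum_congr rfl fun w _ => ?_
  rcases orb_eq_zero_or_one (G := G) y₀ z₀ y₀ w with h | h
  · rw [h]
    simp
  · rw [h, mul_one, mul_one]
    obtain ⟨g, hg1, hg2⟩ := (orb_eq_one_iff y₀ z₀ y₀ w).mp h
    rw [← hg2]
    nth_rw 2 [← hg1]
    exact (C.T_inv g y₀ z₀).symm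

/-- Sheet sums of an invariant kernel. -/
noncomputable def sheet (A : Matrix α α ℚ) (b c : Fin 2) : ℚ := ∑ j : ZMod p, A (C.φ (0, b)) (C.φ (j, c))

lemma sheet_row (A : Matrix α α ℚ) (b : Fin 2) :
    C.sheet A b 0 + C.sheet A b 1 = ∑ z, A (C.φ (0, b)) z := by
  rw [C.sum_coord, Finset.sum_add_distrib]
  rfl

lemma sheet_diff {A : Matrix α α ℚ} (hA : IsInv G A) :
    C.sheet A 0 0 - C.sheet A 0 1 = C.a A ∧ C.sheet A 1 0 - C.sheet A 1 1 = - C.a A := by
  constructor
  · have h := mulVec_v (C := C) hA (C.φ (0, 0))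
    rw [C.sum_coord] at h
    simp only [C.v_zero, C.v_one, mul_one, mul_neg, ← sub_eq_add_neg] at h
    rw [Finset.sum_sub_distrib] at h
    exact h
  · have h := mulVec_v (C := C) hA (C.φ (0, 1))
    rw [C.sum_coord] at h
    simp only [C.v_zero, C.v_one, mul_one, mul_neg, ← sub_eq_add_neg] at h
    rw [Finset.sum_sub_distrib] at h
    exact h

end Coord

end Cfsg.Agent.Lib.Wielandt.Kernel
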